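import Cfsg.Agent.H709.PB.Deg
import Cfsg.Agent.H709.PB.RegCount
import Cfsg.Agent.HKS.CosetTwo
import Cfsg.Agent.H611.CoverPrincipal
import Cfsg.Agent.H813.K547.Par
import Cfsg.Agent.H892.EP.Defs

/-!
# S4929: counting modulo a power of 2 (helper669)

`N` a normal subgroup of index 2 of `G`, `d ∈ G ∖ N`, `2 ^ k ∣ |G : C(d)|`. If all members of the principal `p`-block of
`N` have odd degree, then for every `v ∈ G`
* `dvd_card_singular` : `2 ^ k` divides the number of conjugates `b` of `d` with `p ∣ orderOf (b * v)`;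
* `dvd_card_class` : `y` of order `p`, `p ^ 2 ∤ |G|`, `|C_G(y)| = 2 c`, `c` odd, and all characters of `N` outside the
  principal block have degree divisible by `p`: `2 ^ k` divides twice the number of conjugates `b` of `d` with `b * v`
  conjugate to `y`.
-/

set_option autoImplicit false

open Cfsg

namespace Cfsg.Agent.H669.EP

open Cfsg.Agent.Characters.Core Cfsg.Agent.Blocks.Basic Cfsg.Agent.Blocks.Local Cfsg.Agent.H133.PB
  Cfsg.Agent.H709.PB Cfsg.Agent.H892.EP
open scoped ComplexConjugate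

universe u v

variable {G : Type u} [Group G]

open scoped Classical in
/-- Sums over a class of a class function; only the characters in the function not vanishing at the class matter. -/
theorem index_dvd_count [Fintype G] {p : ℕ} [hp : Fact p.Prime] {φ : G → ℂ} (hφ : IsClassFunction G φ) (d v : G)
    (hB : ∀ χ : IrrCharacter G, classInner φ (χ : G → ℂ) ≠ 0 → (χ : G → ℂ) d ≠ 0 → ¬ p ∣ charDegree (χ : G → ℂ))
    {c : ℕ} (hc : ¬ p ∣ c)
    (hint : ∀ χ : IrrCharacter G, IsIntegral ℤ ((c : ℂ) * classInner φ (χ : G → ℂ))) {N : ℕ}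
    (hN : ∑ b with IsConj d b, φ (b * v) = (N : ℂ)) :
    ∃ m : ℕ, ¬ p ∣ m ∧ (Subgroup.centralizer ({d} : Set G)).index ∣ m * N := by
  have : Finite (IrrCharacter G) := finite_irr
  have : Fintype (IrrCharacter G) := Fintype.ofFinite _
  have hdeg : ∀ χ : IrrCharacter G, (χ : G → ℂ) 1 = (charDegree (χ : G → ℂ) : ℂ) := fun χ =>
    Cfsg.Agent.Blocks.Basic.irr_one_eq_charDegree χ.2
  have hpos : ∀ χ : IrrCharacter G, charDegree (χ : G → ℂ) ≠ 0 := fun χ =>
    (Cfsg.Agent.Blocks.Basic.charDegree_pos χ.2).ne'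
  set s : Finset (IrrCharacter G) := Finset.univ.filter
    (fun χ : IrrCharacter G => classInner φ (χ : G → ℂ) ≠ 0 ∧ (χ : G → ℂ) d ≠ 0) with hs
  have hmem : ∀ χ : IrrCharacter G, χ ∈ s ↔ classInner φ (χ : G → ℂ) ≠ 0 ∧ (χ : G → ℂ) d ≠ 0 := fun χ => by
    rw [hs, Finset.mem_filter]
    exact and_iff_right (Finset.mem_univ _)
  have hkey : ∀ g : G, φ g = ∑ χ : IrrCharacter G, classInner φ (χ : G → ℂ) * (χ : G → ℂ) g := by
    intro g
    have h1 := congrFun (S0152.result φ hφ) g
    rw [finsum_eq_sum_of_fintype, Finset.sum_apply] at h1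
    rw [h1]
    rfl
  have hidx : ((Subgroup.centralizer ({d} : Set G)).index : ℂ) ≠ 0 := by
    exact_mod_cast Subgroup.index_ne_zero_of_finite
  have hsum : (N : ℂ) = ∑ χ : IrrCharacter G, classInner φ (χ : G → ℂ) *
      (((Subgroup.centralizer ({d} : Set G)).index : ℂ) * (χ : G → ℂ) d * (χ : G → ℂ) v / (χ : G → ℂ) 1) := by
    rw [← hN]
    simp_rw [hkey]
    rw [Finset.sum_comm]
    refine Finset.sum_congr rfl fun χ _ => ?_
    rw [← Finset.mul_sum]
    congr 1
    exact Cfsg.Agent.Characters.ClassMul.sum_class_char_mul χ.2 d v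
  refine ⟨c * ∏ χ ∈ s, charDegree (χ : G → ℂ), ?_, ?_⟩
  · intro hd
    rcases (hp.out.dvd_mul).1 hd with h | h
    · exact hc h
    · obtain ⟨χ, h1, hχ⟩ := (Prime.dvd_finsetProd_iff hp.out.prime _).1 h
      exact hB χ ((hmem χ).1 h1).1 ((hmem χ).1 h1).2 hχ
  · set m := ∏ χ ∈ s, charDegree (χ : G → ℂ) with hm
    apply Cfsg.Agent.Characters.DegreeBounds.nat_dvd_of_isIntegral_div Subgroup.index_ne_zero_of_finite
    have h0 : ((c * m * N : ℕ) : ℂ) / ((Subgroup.centralizer ({d} : Set G)).index : ℂ) =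
        ∑ χ : IrrCharacter G, (m : ℂ) * ((c : ℂ) * classInner φ (χ : G → ℂ)) *
          ((χ : G → ℂ) d * (χ : G → ℂ) v / (χ : G → ℂ) 1) := by
      push_cast
      rw [hsum, Finset.mul_sum, Finset.sum_div]
      refine Finset.sum_congr rfl fun χ _ => ?_
      have h1 : (χ : G → ℂ) 1 ≠ 0 := by rw [hdeg χ]; exact_mod_cast hpos χ
      field_simp
    rw [h0]
    apply IsIntegral.sum
    intro χ _
    by_cases hχs : χ ∈ s
    swap
    · have h2 : classInner φ (χ : G → ℂ) = 0 ∨ (χ : G → ℂ) d = 0 := by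
        by_contra hcon
        push Not at hcon
        exact hχs ((hmem χ).2 hcon)
      rcases h2 with h2 | h2
      · rw [h2]
        simp only [mul_zero, zero_mul]
        exact isIntegral_zero
      · rw [h2]
        simp only [mul_zero, zero_mul, zero_div]
        exact isIntegral_zero
    have hsplit : (m : ℂ) = (charDegree (χ : G → ℂ) : ℂ) *
        ∏ ψ ∈ s.erase χ, (charDegree (ψ : G → ℂ) : ℂ) := by
      rw [hm]
      push_cast
      rw [Finset.mul_prod_erase s (fun ψ : IrrCharacter G => (charDegree (ψ : G → ℂ) : ℂ)) hχs]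
    have hne : (charDegree (χ : G → ℂ) : ℂ) ≠ 0 := by exact_mod_cast hpos χ
    have : (m : ℂ) * ((c : ℂ) * classInner φ (χ : G → ℂ)) *
          ((χ : G → ℂ) d * (χ : G → ℂ) v / (χ : G → ℂ) 1) =
        (∏ ψ ∈ s.erase χ, (charDegree (ψ : G → ℂ) : ℂ)) * ((c : ℂ) * classInner φ (χ : G → ℂ)) *
        ((χ : G → ℂ) d * (χ : G → ℂ) v) := by
      rw [hdeg χ, hsplit]
      field_simp
    rw [this]
    have hχ : IsCharacter G (χ : G → ℂ) := by
      obtain ⟨n, ρ, -, h3⟩ := χ.2
      exact ⟨n, ρ, h3⟩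
    refine IsIntegral.mul (IsIntegral.mul ?_ (hint χ)) ((Characters.GaloisBasic.isIntegral_apply hχ d).mul
      (Characters.GaloisBasic.isIntegral_apply hχ v))
    apply IsIntegral.prod
    intro ψ _
    have h3 : IsIntegral ℤ (algebraMap ℤ ℂ (charDegree (ψ : G → ℂ) : ℤ)) :=
      isIntegral_algebraMap
    simpa using h3

/-- A character in the principal block not vanishing outside the subgroup of index 2 restricts to a member of the
principal block. -/
theorem exists_restrict [Finite G] {p : ℕ} [Fact p.Prime] (N : Subgroup G) [N.Normal] (hN : N.index = 2) {d : G}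
    (hd : d ∉ N) (χ : IrrCharacter G) (hχ : (χ : G → ℂ) d ≠ 0) :
    ∃ θ : IrrCharacter N, charDegree (θ : N → ℂ) = charDegree (χ : G → ℂ) ∧
      ∀ M : Ideal AlgInt, IsPModular p M → χ ∈ principalBlock M G → θ ∈ principalBlock M N := by
  classical
  have := Fintype.ofFinite G
  have := Fintype.ofFinite N
  have h1 := HKS.CosetTwo.isIrr_restrict hN χ.2 hd hχ
  refine ⟨⟨_, h1⟩, rfl, fun M hM h => ?_⟩
  refine H611.CoverPrincipal.mem_principalBlock_of_over p hM N χ ⟨_, h1⟩ ?_ h
  change classInner (fun n : N => (χ : G → ℂ) n) (fun n : N => (χ : G → ℂ) n) ≠ 0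
  rw [classInner_irr_self h1]
  exact one_ne_zero

/-- **The counting criterion**, all `p`-singular elements. -/
theorem dvd_card_singular [Finite G] {p : ℕ} [hp : Fact p.Prime] (hp2 : p ≠ 2) (N : Subgroup G) [N.Normal]
    (hN : N.index = 2) {M : Ideal AlgInt} (hM : IsPModular p M)
    (hodd : ∀ θ : IrrCharacter N, θ ∈ principalBlock M N → ¬ 2 ∣ charDegree (θ : N → ℂ)) {d : G} (hd : d ∉ N) (v : G)
    {k : ℕ} (hk : 2 ^ k ∣ (Subgroup.centralizer ({d} : Set G)).index) :
    2 ^ k ∣ Nat.card {b : G // IsConj d b ∧ p ∣ orderOf (b * v)} := by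
  classical
  have := Fintype.ofFinite G
  have : Fact (Nat.Prime 2) := ⟨Nat.prime_two⟩
  obtain ⟨h1, h2, h3⟩ := indicator_regular (G := G) hM
  obtain ⟨m, hm, hdv⟩ := index_dvd_count (p := 2) h1 d v (fun χ hχ1 hχ2 => by
      obtain ⟨θ, hθ, hb⟩ := exists_restrict (p := p) N hN hd χ hχ2
      rw [← hθ]
      refine hodd θ (hb M hM ?_)
      by_contra hcon
      exact hχ1 (h2 χ hcon)) (c := p ^ (Nat.card G).factorization p)
    (fun hd => hp2 ((Nat.prime_dvd_prime_iff_eq Nat.prime_two hp.out).1 (Nat.prime_two.dvd_of_dvd_pow hd)).symm) h3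
    (N := Nat.card {b : G // IsConj d b ∧ ¬ p ∣ orderOf (b * v)}) (by
      rw [Nat.card_eq_fintype_card, Fintype.card_subtype, Finset.card_eq_sum_ones, Nat.cast_sum, Finset.sum_filter,
        Finset.sum_filter]
      refine Finset.sum_congr rfl fun b _ => ?_
      by_cases h5 : p ∣ orderOf (b * v) <;> simp [h5])
  have h4 : (2 ^ k).Coprime m := Nat.Coprime.pow_left _ ((Nat.Prime.coprime_iff_not_dvd Nat.prime_two).2 hm)
  have h5 := h4.dvd_of_dvd_mul_left (hk.trans hdv)
  have h6 : Nat.card {b : G // IsConj d b ∧ p ∣ orderOf (b * v)} +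
      Nat.card {b : G // IsConj d b ∧ ¬ p ∣ orderOf (b * v)} = (Subgroup.centralizer ({d} : Set G)).index := by
    rw [← Cfsg.Agent.Characters.ClassMul.card_filter_isConj, Nat.card_eq_fintype_card, Nat.card_eq_fintype_card,
      Fintype.card_subtype, Fintype.card_subtype, ← Finset.filter_filter, ← Finset.filter_filter]
    exact Finset.card_filter_add_card_filter_not _
  rw [← h6] at hk
  exact (Nat.dvd_add_left h5).1 hk

open scoped Classical in
theorem classInner_class [Fintype G] (y : G) (χ : IrrCharacter G) {a : ℂ} :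
    classInner (fun g : G => if IsConj y g then a else 0) (χ : G → ℂ) * (Nat.card (Subgroup.centralizer ({y} : Set G)) : ℂ) =
      a * conj ((χ : G → ℂ) y) := by
  have hcf := isIrr_isClassFunction χ.2
  have h1 : ∑ g : G, (if IsConj y g then a else 0) * conj ((χ : G → ℂ) g) =
      ((Subgroup.centralizer ({y} : Set G)).index : ℂ) * (a * conj ((χ : G → ℂ) y)) := by
    rw [← Finset.sum_filter_add_sum_filter_not Finset.univ (fun g : G => IsConj y g)]
    have h2 : ∑ g : G with ¬ IsConj y g, (if IsConj y g then a else 0) * conj ((χ : G → ℂ) g) = 0 := by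
      refine Finset.sum_eq_zero fun g hg => ?_
      rw [if_neg (Finset.mem_filter.1 hg).2, zero_mul]
    rw [h2, add_zero]
    have h3 : ∀ g ∈ Finset.univ.filter (fun g : G => IsConj y g),
        (if IsConj y g then a else 0) * conj ((χ : G → ℂ) g) = a * conj ((χ : G → ℂ) y) := by
      intro g hg
      have h4 := (Finset.mem_filter.1 hg).2
      rw [if_pos h4]
      obtain ⟨k, hk⟩ := isConj_iff.1 h4
      rw [← hk, isClassFunction_def.1 hcf]
    rw [Finset.sum_congr rfl h3, Finset.sum_const, nsmul_eq_mul]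
    congr 2
    rw [← Cfsg.Agent.Characters.ClassMul.card_filter_isConj y]
  rw [Characters.Core.classInner_def, h1]
  have hG : (Nat.card G : ℂ) ≠ 0 := by exact_mod_cast Nat.card_pos.ne'
  have h5 : ((Subgroup.centralizer ({y} : Set G)).index : ℂ) * (Nat.card (Subgroup.centralizer ({y} : Set G)) : ℂ) =
      (Nat.card G : ℂ) := by
    rw [mul_comm]
    exact_mod_cast (Subgroup.centralizer ({y} : Set G)).card_mul_index
  field_simp
  linear_combination (a * conj ((χ : G → ℂ) y)) * h5

/-- **The counting criterion**, one class of elements of order `p`. -/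
theorem dvd_card_class [Finite G] {p : ℕ} [hp : Fact p.Prime] (N : Subgroup G) [N.Normal]
    (hN : N.index = 2) {M : Ideal AlgInt} (hM : IsPModular p M) (hNB : NB p 1 N) (hsq : ¬ p ^ 2 ∣ Nat.card G)
    (hodd : ∀ θ : IrrCharacter N, θ ∈ principalBlock M N → ¬ 2 ∣ charDegree (θ : N → ℂ)) {d : G} (hd : d ∉ N) (v : G)
    {y : G} (hy : orderOf y = p) {c : ℕ} (hcy : Nat.card (Subgroup.centralizer ({y} : Set G)) = 2 * c) (hc : ¬ 2 ∣ c)
    {k : ℕ} (hk : 2 ^ k ∣ (Subgroup.centralizer ({d} : Set G)).index) :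
    2 ^ k ∣ 2 * Nat.card {b : G // IsConj d b ∧ IsConj y (b * v)} := by
  classical
  have := Fintype.ofFinite G
  have : Fact (Nat.Prime 2) := ⟨Nat.prime_two⟩
  have hc0 : (c : ℂ) ≠ 0 := by
    intro h
    rw [Nat.cast_eq_zero] at h
    exact hc (h ▸ dvd_zero 2)
  have key : ∀ χ : IrrCharacter G, (c : ℂ) * classInner (fun g : G => if IsConj y g then (2 : ℂ) else 0) (χ : G → ℂ) =
      conj ((χ : G → ℂ) y) := by
    intro χ
    have h1 := classInner_class y χ (a := 2)
    rw [hcy] at h1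
    push_cast at h1
    linear_combination h1 / 2
  have hpG : p ∣ Nat.card G := by
    rw [← hy]; exact orderOf_dvd_natCard y
  obtain ⟨m, hm, hdv⟩ := index_dvd_count (p := 2) (φ := fun g : G => if IsConj y g then (2 : ℂ) else 0)
    (isClassFunction_def.2 fun g k => by
      have : IsConj y (k * g * k⁻¹) ↔ IsConj y g := by
        have h1 : IsConj g (k * g * k⁻¹) := isConj_iff.2 ⟨k, rfl⟩
        exact ⟨fun h => h.trans h1.symm, fun h => h.trans h1⟩
      simp only [this]) d v (fun χ hχ1 hχ2 => by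
      obtain ⟨θ, hθ, -⟩ := exists_restrict (p := p) N hN hd χ hχ2
      have h1 : (χ : G → ℂ) y ≠ 0 := by
        intro h0
        apply hχ1
        have h2 := key χ
        rw [h0, map_zero] at h2
        exact (mul_eq_zero.1 h2).resolve_left hc0
      have h2 : ¬ p ∣ charDegree (χ : G → ℂ) := fun h3 => h1 (H813.K547.vanish χ.2 hp.out hpG hsq h3 (by rw [hy]))
      rw [← hθ]
      refine hodd θ ?_
      by_contra h3
      have h4 := hNB M hM θ h3
      rw [pow_one, hθ] at h4
      exact h2 h4) (c := c) hc (fun χ => by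
      rw [key χ]
      have hχ : IsCharacter G (χ : G → ℂ) := by
        obtain ⟨n, ρ, -, h3⟩ := χ.2
        exact ⟨n, ρ, h3⟩
      have h1 := Characters.GaloisBasic.isIntegral_apply hχ y
      exact h1.map (RingHom.toIntAlgHom (starRingEnd ℂ)))
    (N := 2 * Nat.card {b : G // IsConj d b ∧ IsConj y (b * v)}) (by
      rw [Nat.card_eq_fintype_card, Fintype.card_subtype, Finset.card_eq_sum_ones, Nat.cast_mul, Nat.cast_sum,
        Finset.sum_filter, Finset.sum_filter, Finset.mul_sum]
      refine Finset.sum_congr rfl fun b _ => ?_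
      by_cases h4 : IsConj d b <;> by_cases h5 : IsConj y (b * v)
      · rw [if_pos h4, if_pos h5, if_pos (And.intro h4 h5)]; norm_num
      · rw [if_pos h4, if_neg h5, if_neg (fun h => h5 (And.right h))]; norm_num
      · rw [if_neg h4, if_neg (fun h => h4 (And.left h))]; norm_num
      · rw [if_neg h4, if_neg (fun h => h4 (And.left h))]; norm_num)
  have h4 : (2 ^ k).Coprime m := Nat.Coprime.pow_left _ ((Nat.Prime.coprime_iff_not_dvd Nat.prime_two).2 hm)
  exact h4.dvd_of_dvd_mul_left (hk.trans hdv)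

/-- the conclusion of S4929 from the number of the conjugates `b` of `d` with `p ∣ orderOf (b * v)` -/
theorem evAt_of_singular [Finite G] {p : ℕ} [hp : Fact p.Prime] (hp2 : p ≠ 2) (N : Subgroup G) [N.Normal]
    (hN : N.index = 2) {d : G} (hd : d ∉ N) (v : G) {k : ℕ} (hk : 2 ^ k ∣ (Subgroup.centralizer ({d} : Set G)).index)
    (h : ¬ 2 ^ k ∣ Nat.card {b : G // IsConj d b ∧ p ∣ orderOf (b * v)}) : EvAt p N := by
  intro M hM
  by_contra hcon
  push Not at hcon
  exact h (dvd_card_singular hp2 N hN hM hcon hd v hk)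

/-- the conclusion of S4929 from the number of the conjugates `b` of `d` with `orderOf (b * v) = p`, if the elements of
order `p` are not real, but `v` is real -/
theorem evAt_of_nonreal [Finite G] {p : ℕ} [hp : Fact p.Prime] (N : Subgroup G) [N.Normal] (hN : N.index = 2)
    (hNB : NB p 1 N) (hsq : ¬ p ^ 2 ∣ Nat.card G) {d : G} (hd : d ∉ N) (hdd : d * d = 1) {v c : G}
    (hc : c * v * c⁻¹ = v⁻¹) (hcent : ∀ y : G, orderOf y = p →
      ∃ m : ℕ, Nat.card (Subgroup.centralizer ({y} : Set G)) = 2 * m ∧ ¬ 2 ∣ m)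
    (hreal : ∀ y : G, orderOf y = p → ¬ IsConj y y⁻¹) {k : ℕ}
    (hk : 2 ^ k ∣ (Subgroup.centralizer ({d} : Set G)).index)
    (h : ¬ 2 ^ k ∣ Nat.card {b : G // IsConj d b ∧ orderOf (b * v) = p}) : EvAt p N := by
  classical
  intro M hM
  by_contra hcon
  push Not at hcon
  apply h
  have := Fintype.ofFinite G
  set f : ConjClasses G → ℕ := fun C => Nat.card {b : G // IsConj d b ∧ ConjClasses.mk (b * v) = C} with hf
  set S : Finset (ConjClasses G) := Finset.univ.filter (fun C => ∃ y : G, orderOf y = p ∧ ConjClasses.mk y = C) with hS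
  -- the number of the elements in a class
  have h1 : ∀ C ∈ S, 2 ^ k ∣ 2 * f C := by
    intro C hC
    obtain ⟨y, hy, rfl⟩ := (Finset.mem_filter.1 hC).2
    obtain ⟨m, hm, hm2⟩ := hcent y hy
    have h2 := dvd_card_class N hN hM hNB hsq hcon hd v hy hm hm2 hk
    have h3 : f (ConjClasses.mk y) = Nat.card {b : G // IsConj d b ∧ IsConj y (b * v)} := by
      rw [hf]
      refine Nat.card_congr (Equiv.subtypeEquivRight fun b => ?_)
      rw [ConjClasses.mk_eq_mk_iff_isConj]
      exact and_congr_right fun _ => ⟨IsConj.symm, IsConj.symm⟩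
    rw [h3]
    exact h2
  have h2 : Nat.card {b : G // IsConj d b ∧ orderOf (b * v) = p} = ∑ C ∈ S, f C := by
    have h3 : ∀ C, f C = (Finset.univ.filter (fun b : G => IsConj d b ∧ ConjClasses.mk (b * v) = C)).card := by
      intro C
      show Nat.card {b : G // IsConj d b ∧ ConjClasses.mk (b * v) = C} = _
      rw [Nat.card_eq_fintype_card, Fintype.card_subtype]
    simp_rw [h3]
    rw [Nat.card_eq_fintype_card, Fintype.card_subtype, ← Finset.card_biUnion]
    · congr 1
      ext b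
      simp only [Finset.mem_filter, Finset.mem_univ, true_and, Finset.mem_biUnion]
      constructor
      · rintro ⟨h4, h5⟩
        exact ⟨_, Finset.mem_filter.2 ⟨Finset.mem_univ _, b * v, h5, rfl⟩, h4, rfl⟩
      · rintro ⟨C, hC, h4, h5⟩
        obtain ⟨y, hy, hyC⟩ := (Finset.mem_filter.1 hC).2
        refine ⟨h4, ?_⟩
        rw [← hyC, ConjClasses.mk_eq_mk_iff_isConj] at h5
        obtain ⟨a, ha⟩ := isConj_iff.1 h5
        rw [← hy, ← ha]
        exact ((MulAut.conj a).orderOf_eq _).symm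
    · intro C _ C' _ hne
      rw [Function.onFun, Finset.disjoint_left]
      intro b hb hb'
      exact hne ((Finset.mem_filter.1 hb).2.2.symm.trans (Finset.mem_filter.1 hb').2.2)
  rw [h2, ← ZMod.natCast_eq_zero_iff, Nat.cast_sum]
  have key : ∀ y : G, f (ConjClasses.mk y⁻¹) = f (ConjClasses.mk y) := by
    intro y
    refine Nat.card_congr (Equiv.subtypeEquiv (MulAut.conj c).toEquiv fun b => ?_)
    change _ ↔ (IsConj d (c * b * c⁻¹) ∧ ConjClasses.mk (c * b * c⁻¹ * v) = ConjClasses.mk y)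
    have e1 : IsConj b (c * b * c⁻¹) := isConj_iff.2 ⟨c, rfl⟩
    have e2 : IsConj d b ↔ IsConj d (c * b * c⁻¹) := ⟨fun h => h.trans e1, fun h => h.trans e1.symm⟩
    rw [← e2]
    refine and_congr_right fun hb => ?_
    have hbb : b * b = 1 := by
      obtain ⟨a, rfl⟩ := isConj_iff.1 hb
      calc a * d * a⁻¹ * (a * d * a⁻¹) = a * (d * d) * a⁻¹ := by group
        _ = 1 := by rw [hdd, mul_one, mul_inv_cancel]
    have hb1 : b⁻¹ = b := inv_eq_of_mul_eq_one_left hbb
    -- `c b c⁻¹ v` is conjugate to `(b v)⁻¹`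
    have e3 : IsConj (c * b * c⁻¹ * v) (b * v)⁻¹ := by
      have e4 : v = c⁻¹ * v⁻¹ * c := by rw [← hc]; group
      have e5 : c⁻¹ * v * c = v⁻¹ := by
        calc c⁻¹ * v * c = (c⁻¹ * v⁻¹ * c)⁻¹ := by group
          _ = v⁻¹ := by rw [← e4]
      refine isConj_iff.2 ⟨b * c⁻¹, ?_⟩
      calc b * c⁻¹ * (c * b * c⁻¹ * v) * (b * c⁻¹)⁻¹ = (b * b) * (c⁻¹ * v * c) * b⁻¹ := by group
        _ = (b * v)⁻¹ := by rw [hbb, e5, one_mul, mul_inv_rev]
    rw [ConjClasses.mk_eq_mk_iff_isConj, ConjClasses.mk_eq_mk_iff_isConj]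
    have e6 : ∀ a b : G, IsConj a b → IsConj a⁻¹ b⁻¹ := by
      rintro a b hab
      obtain ⟨g, rfl⟩ := isConj_iff.1 hab
      exact isConj_iff.2 ⟨g, by group⟩
    constructor
    · intro h7
      have h8 := e6 _ _ h7
      rw [inv_inv] at h8
      exact e3.trans h8
    · intro h7
      have h8 := e3.symm.trans h7
      have h9 := e6 _ _ h8
      rwa [inv_inv] at h9
  refine Finset.sum_involution (fun C _ => ConjClasses.mk (Quotient.out C)⁻¹) ?_ ?_ ?_ ?_
  · intro C hC
    have h3 : ConjClasses.mk (Quotient.out C) = C := Quotient.out_eq C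
    have h4 : f (ConjClasses.mk (Quotient.out C)⁻¹) = f C := by rw [key, h3]
    rw [h4, ← two_mul]
    have h5 := (ZMod.natCast_eq_zero_iff (2 * f C) (2 ^ k)).2 (h1 C hC)
    push_cast at h5 ⊢
    exact h5
  · intro C hC _ h4
    obtain ⟨y, hy, hyC⟩ := (Finset.mem_filter.1 hC).2
    have h3 : ConjClasses.mk (Quotient.out C) = C := Quotient.out_eq C
    have h5 : IsConj (Quotient.out C)⁻¹ (Quotient.out C) := by
      rw [← ConjClasses.mk_eq_mk_iff_isConj, h4, h3]
    have h6 : IsConj y (Quotient.out C) := by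
      rw [← ConjClasses.mk_eq_mk_iff_isConj, hyC, h3]
    obtain ⟨a, ha⟩ := isConj_iff.1 h6
    have h7 : orderOf (Quotient.out C) = p := by
      rw [← hy, ← ha]
      exact (MulAut.conj a).orderOf_eq _
    exact hreal _ h7 h5.symm
  · intro C hC
    obtain ⟨y, hy, hyC⟩ := (Finset.mem_filter.1 hC).2
    have h3 : ConjClasses.mk (Quotient.out C) = C := Quotient.out_eq C
    have h6 : IsConj y (Quotient.out C) := by
      rw [← ConjClasses.mk_eq_mk_iff_isConj, hyC, h3]
    obtain ⟨a, ha⟩ := isConj_iff.1 h6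
    refine Finset.mem_filter.2 ⟨Finset.mem_univ _, (Quotient.out C)⁻¹, ?_, rfl⟩
    rw [orderOf_inv, ← hy, ← ha]
    exact (MulAut.conj a).orderOf_eq _
  · intro C hC
    have h3 : ConjClasses.mk (Quotient.out C) = C := Quotient.out_eq C
    obtain ⟨x, hx⟩ : ∃ x : G, x = Quotient.out C := ⟨_, rfl⟩
    obtain ⟨z, hz⟩ : ∃ z : G, z = Quotient.out (ConjClasses.mk x⁻¹) := ⟨_, rfl⟩
    have h4 : ConjClasses.mk z = ConjClasses.mk x⁻¹ := by
      rw [hz]
      exact Quotient.out_eq (ConjClasses.mk x⁻¹)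
    rw [ConjClasses.mk_eq_mk_iff_isConj] at h4
    obtain ⟨a, ha⟩ := isConj_iff.1 h4
    have h5 : ConjClasses.mk z⁻¹ = C := by
      rw [← h3, ← hx, ConjClasses.mk_eq_mk_iff_isConj]
      refine isConj_iff.2 ⟨a, ?_⟩
      calc a * z⁻¹ * a⁻¹ = (a * z * a⁻¹)⁻¹ := by group
        _ = x := by rw [ha, inv_inv]
    rw [hz, hx] at h5
    exact h5

end Cfsg.Agent.H669.EP
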