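import Cfsg.Agent.H843.Pat

/-!
# `Fi24`: cycles of the products of a transposition with a fixed element (helper669, for S4929)

`v = word vw`, the list `l` consists of `(p, k, q, cu)`: `cu` is the code of a transposition `d` at the point `p`; the
point `q` is fixed by `(d v) ^ k`, not by `d v` (`cyc_spec`).
-/

set_option autoImplicit false
set_option maxRecDepth 100000
set_option linter.constructorNameAsVariable false

namespace Cfsg.Agent.H669.EP.Fi

open Cfsg Cfsg.Agent.Lib.PermNet Cfsg.Agent.Lib.PermNetPt Cfsg.Agent.Fischer.Fi24RepDef Cfsg.Agent.Fischer.Fi24Rep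
open Cfsg.Agent.Fischer.Fi24Spider (word_append word_cons word_nil)
open Cfsg.Agent.R08.FiTwentyFour (L)
open Cfsg.Agent.KFacts.FiTF.Pts Cfsg.Agent.KFacts.FiTF.FixMask Cfsg.Agent.H843.Pat
open Cfsg.Agent.KFacts.FiTF.Defs (tr)
open Cfsg.Spor (Fi24)
open Cfsg.Spor.Fi24 (Gen)

/-- the check for one point -/
noncomputable def cyc1 (vw : List Gen) (p k q cu : ℕ) : Bool :=
  (fun (c : Gen) (u : List Gen) => Bool.rec false
    ((fun (W : List Net) => Bool.rec (itx W (fun z => Nat.beq z q) k q) false (Nat.beq (winv W q) q))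
      (nw (u ++ c :: (u.reverse ++ vw)) false))
    (Nat.beq (winv (nw u false) p) (pn c))) (gd (Nat.mod cu 16)) (dec 100 (Nat.div cu 16))

theorem cyc1_spec {vw : List Gen} {p k q cu : ℕ} (h : cyc1 vw p k q cu = true) :
    ∃ d, IsPt d p ∧ rho ((d * word vw) ^ k) q = q ∧ rho (d * word vw) q ≠ q := by
  unfold cyc1 at h
  generalize gd (Nat.mod cu 16) = c at h
  generalize dec 100 (Nat.div cu 16) = u at h
  replace h : (Bool.rec false
    (Bool.rec (itx (nw (u ++ c :: (u.reverse ++ vw)) false) (fun z => Nat.beq z q) k q) false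
      (Nat.beq (winv (nw (u ++ c :: (u.reverse ++ vw)) false) q) q) : Bool)
    (Nat.beq (winv (nw u false) p) (pn c)) : Bool) = true := h
  have h1 : Nat.beq (winv (nw u false) p) (pn c) = true := by
    cases hc : Nat.beq (winv (nw u false) p) (pn c) with
    | false => rw [hc] at h; exact absurd h (by simp)
    | true => rfl
  rw [h1] at h
  replace h : (Bool.rec (itx (nw (u ++ c :: (u.reverse ++ vw)) false) (fun z => Nat.beq z q) k q) false
      (Nat.beq (winv (nw (u ++ c :: (u.reverse ++ vw)) false) q) q) : Bool) = true := h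
  have h2 : Nat.beq (winv (nw (u ++ c :: (u.reverse ++ vw)) false) q) q = false := by
    cases hc : Nat.beq (winv (nw (u ++ c :: (u.reverse ++ vw)) false) q) q with
    | true => rw [hc] at h; exact absurd h (by simp)
    | false => rfl
  rw [h2] at h
  replace h : itx (nw (u ++ c :: (u.reverse ++ vw)) false) (fun z => Nat.beq z q) k q = true := h
  have hW : word (u ++ c :: (u.reverse ++ vw)) = tr u c * word vw := by
    rw [word_append, word_cons, word_append, word_reverse, tr_eq]
    group
  have h3 := Nat.eq_of_beq_eq_true h1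
  rw [winv_word, map_inv, Equiv.Perm.inv_eq_iff_eq] at h3
  refine ⟨tr u c, ?_, ?_, ?_⟩
  · rw [tr_eq, h3]
    exact (isPt_gen c).conj _
  · have h4 := itx_eq (u ++ c :: (u.reverse ++ vw)).reverse (fun z => Nat.beq z q) k q
    rw [List.reverse_reverse, h, word_reverse, hW] at h4
    have h5 := Nat.eq_of_beq_eq_true h4.symm
    rw [inv_pow, map_inv, Equiv.Perm.inv_eq_iff_eq] at h5
    exact h5.symm
  · intro h4
    have h5 : winv (nw (u ++ c :: (u.reverse ++ vw)) false) q = q := by
      rw [winv_word, hW, map_inv, Equiv.Perm.inv_eq_iff_eq]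
      exact h4.symm
    rw [h5, Nat.beq_refl] at h2
    exact absurd h2 (by simp)

/-- the check for a list `(p, k, q, cu)` -/
noncomputable def cycL (vw : List Gen) (l : List (ℕ × ℕ × ℕ × ℕ)) : Bool :=
  List.rec (motive := fun _ => Bool) true (fun a _ ih => Bool.rec false ih (cyc1 vw a.1 a.2.1 a.2.2.1 a.2.2.2)) l

theorem cycL_spec {vw : List Gen} : ∀ {l : List (ℕ × ℕ × ℕ × ℕ)}, cycL vw l = true →
    ∀ a ∈ l, ∃ d, IsPt d a.1 ∧ rho ((d * word vw) ^ a.2.1) a.2.2.1 = a.2.2.1 ∧ rho (d * word vw) a.2.2.1 ≠ a.2.2.1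
  | [], _, a, ha => absurd ha (by simp)
  | b :: l, h, a, ha => by
    have h' : (Bool.rec false (cycL vw l) (cyc1 vw b.1 b.2.1 b.2.2.1 b.2.2.2) : Bool) = true := h
    have h1 : cyc1 vw b.1 b.2.1 b.2.2.1 b.2.2.2 = true := by
      cases hc : cyc1 vw b.1 b.2.1 b.2.2.1 b.2.2.2 with
      | false => rw [hc] at h'; exact absurd h' (by simp)
      | true => rfl
    rw [h1] at h'
    rcases List.mem_cons.1 ha with rfl | ha
    · exact cyc1_spec h1
    · exact cycL_spec h' a ha

/-- a cycle of length prime to the order -/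
theorem not_coprime {g : Fi24} {k n q : ℕ} (h1 : rho (g ^ k) q = q) (h2 : rho g q ≠ q) (h3 : g ^ n = 1)
    (h : Nat.Coprime k n) : False := by
  have e1 : Function.IsPeriodicPt (rho g) k q := by
    show (rho g)^[k] q = q
    rw [← Equiv.Perm.coe_pow, ← map_pow]
    exact h1
  have e2 : Function.IsPeriodicPt (rho g) n q := by
    show (rho g)^[n] q = q
    rw [← Equiv.Perm.coe_pow, ← map_pow, h3, map_one, Equiv.Perm.one_apply]
  have e3 := e1.gcd e2
  rw [show Nat.gcd k n = 1 from h] at e3
  exact h2 e3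

theorem dvd_of_cycle {g : Fi24} {p q : ℕ} (hp : p.Prime) (h1 : rho (g ^ p) q = q) (h2 : rho g q ≠ q) :
    p ∣ orderOf g := by
  by_contra hc
  exact not_coprime h1 h2 (pow_orderOf_eq_one g) ((Nat.Prime.coprime_iff_not_dvd hp).2 hc)

end Cfsg.Agent.H669.EP.Fi
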