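import Cfsg.Agent.H669.EP.FiCyc

/-!
# `Fi24`: counting transpositions by masks of points (helper669, for S4929)

* `ncard_eq` : a set of transpositions and the set of the points;
* `covD` : the covering `cov` of `H843.Pat`, the translates being disjoint (`covD_spec`).
-/

set_option autoImplicit false
set_option maxRecDepth 100000
set_option linter.constructorNameAsVariable false

namespace Cfsg.Agent.H669.EP.Fi

open Cfsg Cfsg.Agent.Lib.PermNet Cfsg.Agent.Lib.PermNetPt Cfsg.Agent.Fischer.Fi24RepDef Cfsg.Agent.Fischer.Fi24Rep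
open Cfsg.Agent.Fischer.Fi24RepOrb (UG orbG)
open Cfsg.Agent.Fischer.Fi24Spider (word_append word_cons word_nil)
open Cfsg.Agent.R08.FiTwentyFour (L)
open Cfsg.Agent.KFacts.FiTF.Pts Cfsg.Agent.KFacts.FiTF.FixMask Cfsg.Agent.H843.Pat
open Cfsg.Agent.KFacts.FiTF.Defs (tr)
open Cfsg.Spor (Fi24)
open Cfsg.Spor.Fi24 (Gen)

/-! ### Transpositions and points -/

theorem ncard_eq {S : Set Fi24} {T : Set ℕ} (hS : S ⊆ L) (h : ∀ e p, IsPt e p → (e ∈ S ↔ p ∈ T))
    (hT : ∀ p ∈ T, ∃ e, IsPt e p) : S.ncard = T.ncard := by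
  classical
  choose f hf using fun (e : Fi24) (he : e ∈ S) => exists_pt (hS he)
  refine Set.ncard_congr f ?_ ?_ ?_
  · intro e he
    exact (h e _ (hf e he)).1 he
  · intro a b ha hb hab
    have h1 := hf a ha
    rw [hab] at h1
    exact h1.inj (hf b hb)
  · intro p hp
    obtain ⟨e, he⟩ := hT p hp
    have h1 := (h e p he).2 hp
    exact ⟨e, h1, (hf e h1).uniq he⟩

/-! ### Fixed points -/

/-- `q` is a point fixed by `d v`, `d` the transposition of the code `cu` at the point `p` -/
noncomputable def fix1 (vw : List Gen) (p q cu : ℕ) : Bool :=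
  (fun (c : Gen) (u : List Gen) => Bool.rec false
    (Bool.rec false (tbc UG q) (Nat.beq (winv (nw (u ++ c :: (u.reverse ++ vw)) false) q) q))
    (Nat.beq (winv (nw u false) p) (pn c))) (gd (Nat.mod cu 16)) (dec 100 (Nat.div cu 16))

theorem fix1_spec {vw : List Gen} {p q cu : ℕ} (h : fix1 vw p q cu = true) :
    ∃ d, IsPt d p ∧ rho (d * word vw) q = q ∧ ∃ f, IsPt f q := by
  unfold fix1 at h
  generalize gd (Nat.mod cu 16) = c at h
  generalize dec 100 (Nat.div cu 16) = u at h
  replace h : (Bool.rec false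
    (Bool.rec false (tbc UG q) (Nat.beq (winv (nw (u ++ c :: (u.reverse ++ vw)) false) q) q))
    (Nat.beq (winv (nw u false) p) (pn c)) : Bool) = true := h
  have h1 : Nat.beq (winv (nw u false) p) (pn c) = true := by
    cases hc : Nat.beq (winv (nw u false) p) (pn c) with
    | false => rw [hc] at h; exact absurd h (by simp)
    | true => rfl
  rw [h1] at h
  replace h : (Bool.rec false (tbc UG q) (Nat.beq (winv (nw (u ++ c :: (u.reverse ++ vw)) false) q) q) : Bool) =
    true := h
  have h2 : Nat.beq (winv (nw (u ++ c :: (u.reverse ++ vw)) false) q) q = true := by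
    cases hc : Nat.beq (winv (nw (u ++ c :: (u.reverse ++ vw)) false) q) q with
    | false => rw [hc] at h; exact absurd h (by simp)
    | true => rfl
  rw [h2] at h
  replace h : tbc UG q = true := h
  rw [tbc_eq] at h
  have hW : word (u ++ c :: (u.reverse ++ vw)) = tr u c * word vw := by
    rw [word_append, word_cons, word_append, word_reverse, tr_eq]
    group
  have h3 := Nat.eq_of_beq_eq_true h1
  rw [winv_word, map_inv, Equiv.Perm.inv_eq_iff_eq] at h3
  refine ⟨tr u c, ?_, ?_, ?_⟩
  · rw [tr_eq, h3]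
    exact (isPt_gen c).conj _
  · have h4 := Nat.eq_of_beq_eq_true h2
    rw [winv_word, hW, map_inv, Equiv.Perm.inv_eq_iff_eq] at h4
    exact h4.symm
  · have h5 : q ∈ {p : ℕ | ∃ x, rho x 0 = p} := by
      rw [orbG]
      exact h
    obtain ⟨g, hg⟩ := h5
    exact ⟨_, g, hg, rfl⟩

/-- the check for a list `(p, _, q, cu)` -/
noncomputable def fixL (vw : List Gen) (l : List (ℕ × ℕ × ℕ × ℕ)) : Bool :=
  List.rec (motive := fun _ => Bool) true (fun a _ ih => Bool.rec false ih (fix1 vw a.1 a.2.2.1 a.2.2.2)) l

theorem fixL_spec {vw : List Gen} : ∀ {l : List (ℕ × ℕ × ℕ × ℕ)}, fixL vw l = true →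
    ∀ a ∈ l, ∃ d, IsPt d a.1 ∧ rho (d * word vw) a.2.2.1 = a.2.2.1 ∧ ∃ f, IsPt f a.2.2.1
  | [], _, a, ha => absurd ha (by simp)
  | b :: l, h, a, ha => by
    have h' : (Bool.rec false (fixL vw l) (fix1 vw b.1 b.2.2.1 b.2.2.2) : Bool) = true := h
    have h1 : fix1 vw b.1 b.2.2.1 b.2.2.2 = true := by
      cases hc : fix1 vw b.1 b.2.2.1 b.2.2.2 with
      | false => rw [hc] at h'; exact absurd h' (by simp)
      | true => rfl
    rw [h1] at h'
    rcases List.mem_cons.1 ha with rfl | ha
    · exact fix1_spec h1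
    · exact fixL_spec h' a ha

/-- every point of the list is fixed by the word -/
noncomputable def fixB (w : List Net) (l : List ℕ) : Bool :=
  List.rec (motive := fun _ => Bool) true (fun p _ ih => Bool.rec false ih (chkPt w p p)) l

theorem fixB_spec {w : List Gen} : ∀ {l : List ℕ}, fixB (nw w false) l = true → ∀ p ∈ l, rho (word w) p = p
  | [], _, a, ha => absurd ha (by simp)
  | b :: l, h, a, ha => by
    have h' : (Bool.rec false (fixB (nw w false) l) (chkPt (nw w false) b b) : Bool) = true := h
    have h1 : chkPt (nw w false) b b = true := by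
      cases hc : chkPt (nw w false) b b with
      | false => rw [hc] at h'; exact absurd h' (by simp)
      | true => rfl
    rw [h1] at h'
    rcases List.mem_cons.1 ha with rfl | ha
    · exact rho_of_chkPt h1
    · exact fixB_spec h' a ha

/-! ### Masks -/

/-- the bits of a mask -/
def bits (M : ℕ) : Set ℕ := {p | M.testBit p = true}

theorem mem_bits {M p : ℕ} : p ∈ bits M ↔ M.testBit p = true := Iff.rfl

theorem finite_bits (M : ℕ) : (bits M).Finite := by
  refine (Set.finite_lt_nat (M.log2 + 1)).subset ?_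
  intro p hp
  rw [mem_bits] at hp
  show p < M.log2 + 1
  by_contra h
  have h1 : M < 2 ^ p := by
    rcases eq_or_ne M 0 with rfl | h0
    · exact Nat.two_pow_pos p
    · exact (Nat.log2_lt h0).1 (by omega)
  rw [Nat.testBit_lt_two_pow h1] at hp
  exact absurd hp (by simp)

theorem bits_msk {l : List ℕ} (h : l.Nodup) : (bits (msk l)).ncard = l.length := by
  have h1 : bits (msk l) = (l.toFinset : Set ℕ) := by
    ext p
    rw [mem_bits, testBit_msk, List.coe_toFinset]
    exact Iff.rfl
  rw [h1, Set.ncard_coe_finset, List.toFinset_card_of_nodup h]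

theorem bits_app (w : List Gen) (M : ℕ) : (bits (appWord (nw w false) M)).ncard = (bits M).ncard := by
  refine Set.ncard_congr (fun p _ => rho (word w) p) ?_ ?_ ?_
  · intro p hp
    rw [mem_bits, testBit_appWord (wok w false), ← rho_word] at hp
    exact hp
  · intro a b _ _ h
    exact (rho (word w)).injective h
  · intro q hq
    refine ⟨rho (word w)⁻¹ q, ?_, ?_⟩
    · rw [mem_bits, testBit_appWord (wok w false), ← rho_word, ← Equiv.Perm.mul_apply, ← map_mul, mul_inv_cancel,
        map_one, Equiv.Perm.one_apply]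
      exact hq
    · rw [← Equiv.Perm.mul_apply, ← map_mul, mul_inv_cancel, map_one, Equiv.Perm.one_apply]

theorem bits_lor {A B : ℕ} (h : Nat.land A B = 0) : (bits (Nat.lor A B)).ncard = (bits A).ncard + (bits B).ncard := by
  have h1 : bits (Nat.lor A B) = bits A ∪ bits B := by
    ext p
    rw [mem_bits, Set.mem_union, mem_bits, mem_bits, show Nat.lor A B = A ||| B from rfl, Nat.testBit_or,
      Bool.or_eq_true]
  rw [h1, Set.ncard_union_eq ?_ (finite_bits A) (finite_bits B)]
  rw [Set.disjoint_left]
  intro p hp hp'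
  have h2 := congrArg (fun x => Nat.testBit x p) h
  rw [show Nat.land A B = A &&& B from rfl] at h2
  simp only [Nat.testBit_and, Nat.zero_testBit] at h2
  rw [mem_bits.1 hp, mem_bits.1 hp'] at h2
  exact absurd h2 (by simp)

/-! ### Disjoint coverings -/

/-- `stp` with the disjointness of the translates, then `k` -/
noncomputable def stpD (M : ℕ) (k : ℕ → Bool) (ws : List (List Gen)) : ℕ → Bool :=
  List.rec (motive := fun _ => ℕ → Bool) k
    (fun w _ ih A => seqB (appWord (nw w false) M) fun B =>
      Bool.rec false (seqB (Nat.lor A B) ih) (Nat.beq (Nat.land A B) 0)) ws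

theorem stpD_spec {M : ℕ} {k : ℕ → Bool} : ∀ {ws : List (List Gen)} {A : ℕ}, stpD M k ws A = true →
    k (stp M ws A) = true ∧ (bits (stp M ws A)).ncard = (bits A).ncard + ws.length * (bits M).ncard
  | [], A, h => ⟨h, by simp [stp]⟩
  | w :: ws, A, h => by
    have h1 : seqB (appWord (nw w false) M) (fun B =>
      Bool.rec false (seqB (Nat.lor A B) (stpD M k ws)) (Nat.beq (Nat.land A B) 0)) = true := h
    rw [seqB_eq, seqB_eq] at h1
    have h2 : Nat.beq (Nat.land A (appWord (nw w false) M)) 0 = true := by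
      cases hc : Nat.beq (Nat.land A (appWord (nw w false) M)) 0 with
      | false => rw [hc] at h1; exact absurd h1 (by simp)
      | true => rfl
    rw [h2] at h1
    obtain ⟨h3, h4⟩ := stpD_spec (ws := ws) h1
    have h5 : stp M (w :: ws) A = stp M ws (Nat.lor A (appWord (nw w false) M)) := by
      show seq _ (stp M ws) = _
      rw [seq_eq]
    rw [h5]
    refine ⟨h3, ?_⟩
    rw [h4, bits_lor (Nat.eq_of_beq_eq_true h2), bits_app, List.length_cons]
    ring

/-- the covering `cov` with the disjointness of the translates, then `k` -/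
noncomputable def covD (k : ℕ → Bool) (ss : List (List (List Gen))) : ℕ → Bool :=
  List.rec (motive := fun _ => ℕ → Bool) k (fun s _ ih M => stpD M ih s M) ss

theorem covD_spec {k : ℕ → Bool} : ∀ {ss : List (List (List Gen))} {M : ℕ}, covD k ss M = true →
    k (cov ss M) = true ∧ (bits (cov ss M)).ncard = cnt ss * (bits M).ncard
  | [], M, h => ⟨h, by simp [cov, cnt]⟩
  | s :: ss, M, h => by
    obtain ⟨h1, h2⟩ := stpD_spec (show stpD M (covD k ss) s M = true from h)
    obtain ⟨h3, h4⟩ := covD_spec h1
    have h5 : cov (s :: ss) M = cov ss (stp M s M) := by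
      show seq _ (cov ss) = _
      rw [seq_eq]
    rw [h5]
    refine ⟨h3, ?_⟩
    rw [h4, h2, show cnt (s :: ss) = (s.length + 1) * cnt ss from rfl]
    ring

end Cfsg.Agent.H669.EP.Fi
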