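import Cfsg.Agent.H669.EP.FiTwDat

/-! # `Fi24`, `p = 23`: kernel checks, the covering and the relations (helper669, for S4929) -/

set_option autoImplicit false
set_option maxRecDepth 100000
set_option Elab.async false
set_option linter.constructorNameAsVariable false

namespace Cfsg.Agent.H669.EP.Fi.Tw

open Cfsg.Agent.Lib.PermNet Cfsg.Agent.Lib.PermNetPt Cfsg.Agent.Fischer.Fi24RepDef Cfsg.Agent.Fischer.Fi24Rep
open Cfsg.Agent.Fischer.Fi24RepOrb (UG)
open Cfsg.Agent.KFacts.FiTF.FixMask Cfsg.Agent.H843.Pat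
open Cfsg.Spor.Fi24 (Gen)

/-- **The covering**: the points fixed by `j` -/
theorem chkC : covD (fun MP => seqB (cov ss (msk (lN.map Prod.fst ++ lF.map Prod.fst))) fun MN =>
    seqB (sv (nw [.j] false) bl UG) fun O => Nat.beq (Nat.land O (Nat.lor MP MN)) O) ss
    (msk (lP.map Prod.fst)) = true := by decide +kernel

theorem nodup : (lP.map Prod.fst).Nodup := by decide +kernel

theorem length : (lP.map Prod.fst).length = 19 := by decide

theorem cnt_ss : cnt ss = 180 := by decide

theorem fix_j : fixB (nw [.j] false) (lP.map Prod.fst) = true := by decide +kernel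

theorem cop : ∀ a ∈ lN, Nat.Coprime a.2.1 23 := by decide +kernel

theorem per : ∀ a ∈ lP, a.2.1 = 23 := by decide +kernel

theorem ne136 : ∀ a ∈ lF, a.2.2.1 ≠ 136 := by decide +kernel

/-- the element `y` -/
def yw : List Gen := [.l, .a, .k, .b]
/-- the element `c` of order 6 -/
def cw : List Gen := [.f, .d, .i, .e, .h]
/-- an element of order 3 -/
def xw : List Gen := [.f, .e, .d, .e, .f, .h]
/-- an involution inverting `v` -/
def gw : List Gen := [.l, .a, .e, .h]
/-- the involution `c ^ 3` -/
def tw : List Gen := [.f, .d, .i, .e, .h, .f, .d, .i, .e, .h, .f, .d, .i, .e, .h]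

theorem yv : chkEq (yw ++ vw) (vw ++ yw) = true := by decide +kernel
theorem cv : chkEq (cw ++ vw) (vw ++ cw) = true := by decide +kernel
theorem xv : chkEq (xw ++ vw) (vw ++ xw) = true := by decide +kernel
theorem gv : chkEq (gw ++ vw) (vw.reverse ++ gw) = true := by decide +kernel
theorem jv : chkEq ([.j] ++ vw) (vw ++ [.j]) = true := by decide +kernel
theorem yj : chkEq (yw ++ [.j]) ([.j] ++ yw) = true := by decide +kernel
theorem cj : chkEq (cw ++ [.j]) ([.j] ++ cw) = true := by decide +kernel
theorem xj : chkEq (xw ++ [.j]) ([.j] ++ xw) = true := by decide +kernel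
theorem gj : chkEq (gw ++ [.j]) ([.j] ++ gw) = true := by decide +kernel
theorem tt : chkEq (tw ++ tw) [] = true := by decide +kernel
theorem gg : chkEq (gw ++ gw) [] = true := by decide +kernel
theorem gt : chkEq (gw ++ tw) (tw ++ gw) = true := by decide +kernel
/-- `t i t = f` -/
theorem tft : chkEq [.f] (tw ++ .i :: tw) = true := by decide +kernel

theorem ss_eq : ss = [[rep 1 yw, rep 2 yw, rep 3 yw, rep 4 yw], [rep 1 cw, rep 2 cw, rep 3 cw, rep 4 cw, rep 5 cw],
    [rep 1 xw, rep 2 xw], [rep 1 gw]] := by rfl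

theorem tw_eq : tw = rep 3 cw := by rfl

end Cfsg.Agent.H669.EP.Fi.Tw
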