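import Cfsg.Agent.H843.N23

/-!
# `Fi24`: the elements of order 23 (helper669, for S4929)

* `card_cent`, `not_real`, `uniq`, `order_of_dvd` : the centralizer of an element of order 23 has order 46 and contains
  exactly one transposition (`eq_of_invol`: exactly one involution), the elements are not real;
* `dvd_ncard_of_free` : a group acting freely on a set by conjugation.
-/

set_option autoImplicit false

namespace Cfsg.Agent.H669.EP.Fi.Tw

open Cfsg Subgroup
open Cfsg.Agent.Fischer Cfsg.Agent.Fischer.Fi24Rep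
open Cfsg.Agent.R08.FiTwentyFour (L finite_Fi24)
open Cfsg.Agent.H843 Cfsg.Agent.H843.Fi24N
open Cfsg.Spor (Fi24)
open Cfsg.Spor.Fi24 (Gen)

theorem not_sq : ¬ 23 ^ 2 ∣ Nat.card Fi24 := by
  rw [card_Fi24]
  norm_num

theorem exists_conj {z : Fi24} (hz : orderOf z = 23) :
    ∃ g : Fi24, (zpowers D23.D.x).map (MulAut.conj g).toMonoidHom = zpowers z := by
  have : Finite Fi24 := finite_Fi24
  exact Syl.exists_conj (by norm_num) not_sq (zpowers D23.D.x) (zpowers z) (by rw [Nat.card_zpowers, D23.order])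
    (by rw [Nat.card_zpowers, hz])

theorem card_cent {z : Fi24} (hz : orderOf z = 23) : Nat.card (centralizer ({z} : Set Fi24)) = 46 := by
  obtain ⟨g, hg⟩ := exists_conj hz
  rw [← Cyc.centralizer_zpowers, ← hg, H841.Transport.coe_map, ← H841.Transport.map_centralizer,
    H841.Transport.card_map, D23.main.2]

theorem card_norm {z : Fi24} (hz : orderOf z = 23) : Nat.card (normalizer (zpowers z : Set Fi24)) = 506 := by
  obtain ⟨g, hg⟩ := exists_conj hz
  rw [← hg, ← H841.Transport.map_normalizer, H841.Transport.card_map, D23.main.1]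

theorem not_real {z : Fi24} (hz : orderOf z = 23) : ¬ IsConj z z⁻¹ := by
  have : Finite Fi24 := finite_Fi24
  intro h
  obtain ⟨g, hg⟩ := isConj_iff.1 h
  have h1 : g * z * g⁻¹ = z ^ 22 := by
    rw [hg]
    refine inv_eq_of_mul_eq_one_right ?_
    have h3 := pow_orderOf_eq_one z
    rw [hz] at h3
    rw [← pow_succ', h3]
  have : Fact (Nat.Prime 2) := ⟨Nat.prime_two⟩
  have h2 := Cyc.dvd_card hz h1 (e := 2) (orderOf_eq_prime (by decide) (by decide))
  rw [card_norm hz, Cyc.centralizer_zpowers, card_cent hz] at h2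
  norm_num at h2

theorem exists_tr {z : Fi24} (hz : orderOf z = 23) : ∃ e ∈ L, e * z = z * e := by
  obtain ⟨g, hg⟩ := exists_conj hz
  have h1 : Fi24Rep.gen .l ∈ L ∩ (centralizer (zpowers D23.D.x : Set Fi24) : Set Fi24) := by
    rw [D23.inter]; rfl
  refine ⟨g * Fi24Rep.gen .l * g⁻¹, Cfsg.Agent.R08.FiTwentyFour.conj h1.1 g, ?_⟩
  have h2 : g * Fi24Rep.gen .l * g⁻¹ ∈ centralizer (zpowers z : Set Fi24) := by
    rw [← hg, H841.Transport.coe_map, ← H841.Transport.map_centralizer]
    exact ⟨Fi24Rep.gen .l, h1.2, rfl⟩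
  exact Cyc.mem_centralizer_zpowers.1 h2

theorem uniq {z : Fi24} (hz : orderOf z = 23) {e f : Fi24} (he : e ∈ L) (hf : f ∈ L) (h1 : e * z = z * e)
    (h2 : f * z = z * f) : e = f := by
  obtain ⟨g, hg⟩ := exists_conj hz
  have key : ∀ e ∈ L, e * z = z * e → g⁻¹ * e * g = Fi24Rep.gen .l := by
    intro e he h1
    have h2 : e ∈ centralizer (zpowers z : Set Fi24) := Cyc.mem_centralizer_zpowers.2 h1
    rw [← hg, H841.Transport.coe_map, ← H841.Transport.map_centralizer] at h2
    obtain ⟨c, hc, hce⟩ := h2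
    have h3 : g * c * g⁻¹ = e := hce
    have h4 : g⁻¹ * e * g = c := by
      rw [← h3]
      group
    have h5 : c ∈ L := by
      rw [← h4]
      have h6 := Cfsg.Agent.R08.FiTwentyFour.conj he g⁻¹
      rwa [inv_inv] at h6
    have h6 : c ∈ L ∩ (centralizer (zpowers D23.D.x : Set Fi24) : Set Fi24) := ⟨h5, hc⟩
    rw [D23.inter] at h6
    rw [h4]
    exact h6
  have h3 := (key e he h1).trans (key f hf h2).symm
  calc e = g * (g⁻¹ * e * g) * g⁻¹ := by group
    _ = g * (g⁻¹ * f * g) * g⁻¹ := by rw [h3]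
    _ = f := by group

/-- the order of an element of even sign divisible by 23 -/
theorem order_of_dvd {u : Fi24} (hu : u ∈ commutator Fi24) (h : 23 ∣ orderOf u) : orderOf u = 23 := by
  have : Finite Fi24 := finite_Fi24
  obtain ⟨m, hm⟩ := h
  have h0 : 0 < orderOf u := orderOf_pos u
  have hm0 : m ≠ 0 := by
    rintro rfl
    omega
  have hz : orderOf (u ^ m) = 23 := by
    rw [orderOf_pow_of_dvd hm0 ⟨23, by rw [hm, mul_comm]⟩, hm, Nat.mul_div_cancel _ (Nat.pos_of_ne_zero hm0)]
  obtain ⟨e, he, hez⟩ := exists_tr hz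
  have h1 := half (H := centralizer ({u ^ m} : Set Fi24)) (mem_centralizer_singleton_iff.2 hez) he
  rw [card_cent hz] at h1
  have h2 : u ∈ (commutator Fi24 ⊓ centralizer ({u ^ m} : Set Fi24) : Subgroup Fi24) :=
    ⟨hu, mem_centralizer_singleton_iff.2 (Commute.self_pow u m)⟩
  have h3 := Subgroup.orderOf_dvd_natCard _ h2
  have h4 : Nat.card (commutator Fi24 ⊓ centralizer ({u ^ m} : Set Fi24) : Subgroup Fi24) = 23 := by omega
  rw [h4] at h3
  exact Nat.dvd_antisymm h3 ⟨m, hm⟩

/-- the only involution -/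
theorem eq_of_invol {z e t : Fi24} (hz : orderOf z = 23) (he : e ∈ L) (h1 : e * z = z * e) (ht : orderOf t = 2)
    (h2 : t * z = z * t) : t = e := by
  have : Finite Fi24 := finite_Fi24
  have hle : zpowers z ≤ centralizer ({z} : Set Fi24) := zpowers_le.2 (mem_centralizer_singleton_iff.2 rfl)
  have h3 : ((zpowers z).subgroupOf (centralizer ({z} : Set Fi24))).index = 2 := by
    have h4 := Subgroup.card_mul_index ((zpowers z).subgroupOf (centralizer ({z} : Set Fi24)))
    have h5 : Nat.card ((zpowers z).subgroupOf (centralizer ({z} : Set Fi24))) = 23 := by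
      rw [Nat.card_congr (Subgroup.subgroupOfEquivOfLe hle).toEquiv, Nat.card_zpowers, hz]
    rw [card_cent hz, h5] at h4
    omega
  have key : ∀ s : Fi24, orderOf s = 2 → s ∉ zpowers z := by
    intro s hs hs'
    have h4 := Subgroup.orderOf_dvd_natCard _ hs'
    rw [Nat.card_zpowers, hz, hs] at h4
    norm_num at h4
  have he2 : orderOf e = 2 := by
    have : Fact (Nat.Prime 2) := ⟨Nat.prime_two⟩
    refine orderOf_eq_prime ?_ (Cfsg.Agent.R08.FiTwentyFour.ne_one_L he)
    rw [pow_two]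
    exact Cfsg.Agent.R08.FiTwentyFour.sq he
  have hC1 : t ∈ centralizer ({z} : Set Fi24) := mem_centralizer_singleton_iff.2 h2
  have hC2 : e ∈ centralizer ({z} : Set Fi24) := mem_centralizer_singleton_iff.2 h1
  have h5 : (⟨t, hC1⟩ * ⟨e, hC2⟩ : centralizer ({z} : Set Fi24)) ∈
      (zpowers z).subgroupOf (centralizer ({z} : Set Fi24)) := by
    rw [Subgroup.mul_mem_iff_of_index_two h3]
    have h6 : (⟨t, hC1⟩ : centralizer ({z} : Set Fi24)) ∉ (zpowers z).subgroupOf (centralizer ({z} : Set Fi24)) :=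
      fun h => key t ht (mem_subgroupOf.1 h)
    have h7 : (⟨e, hC2⟩ : centralizer ({z} : Set Fi24)) ∉ (zpowers z).subgroupOf (centralizer ({z} : Set Fi24)) :=
      fun h => key e he2 (mem_subgroupOf.1 h)
    exact ⟨fun h => absurd h h6, fun h => absurd h h7⟩
  have h6 : t * e ∈ zpowers z := mem_subgroupOf.1 h5
  obtain ⟨n, hn⟩ := h6
  have hn' : z ^ n = t * e := hn
  have hc : Commute e (z ^ n) := (show Commute e z from h1).zpow_right n
  have h7 : t = z ^ n * e := by
    rw [hn', mul_assoc, Cfsg.Agent.R08.FiTwentyFour.sq he, mul_one]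
  have h8 : t * t = z ^ n * z ^ n := by
    calc t * t = z ^ n * e * (z ^ n * e) := by rw [← h7]
      _ = z ^ n * (e * z ^ n) * e := by group
      _ = z ^ n * z ^ n * (e * e) := by rw [hc.eq]; group
      _ = z ^ n * z ^ n := by rw [Cfsg.Agent.R08.FiTwentyFour.sq he, mul_one]
  have h9 : z ^ n * z ^ n = 1 := by
    rw [← h8, ← pow_two, ← ht, pow_orderOf_eq_one]
  have h10 : orderOf (z ^ n) ∣ 2 := orderOf_dvd_of_pow_eq_one (by rw [pow_two, h9])
  have h11 : orderOf (z ^ n) ∣ 23 := by
    have h12 := Subgroup.orderOf_dvd_natCard (zpowers z) (⟨n, rfl⟩ : z ^ n ∈ zpowers z)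
    rwa [Nat.card_zpowers, hz] at h12
  have h12 : orderOf (z ^ n) = 1 := Nat.eq_one_of_dvd_coprimes (by norm_num : Nat.Coprime 2 23) h10 h11
  rw [h7, orderOf_eq_one_iff.1 h12, one_mul]

/-! ### Free actions -/

/-- **A group acting freely on a set by conjugation.** -/
theorem dvd_ncard_of_free {E G : Type*} [Group E] [Finite E] [Group G] [Finite G] (φ : E →* G) (X : Set G)
    (hX : ∀ a, ∀ x ∈ X, φ a * x * (φ a)⁻¹ ∈ X) (hf : ∀ a, ∀ x ∈ X, φ a * x * (φ a)⁻¹ = x → a = 1) :
    Nat.card E ∣ X.ncard := by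
  classical
  let act : MulAction E X :=
    { smul := fun a x => ⟨φ a * x * (φ a)⁻¹, hX a x x.2⟩
      one_smul := fun x => Subtype.ext (by
        show φ 1 * (x : G) * (φ 1)⁻¹ = x
        rw [map_one, one_mul, inv_one, mul_one])
      mul_smul := fun a b x => Subtype.ext (by
        show φ (a * b) * (x : G) * (φ (a * b))⁻¹ = φ a * (φ b * x * (φ b)⁻¹) * (φ a)⁻¹
        rw [map_mul]
        group) }
  have h1 : ∀ x : X, MulAction.stabilizer E x = ⊥ := by
    intro x
    rw [eq_bot_iff]
    intro a ha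
    exact hf a x x.2 (congrArg Subtype.val (MulAction.mem_stabilizer_iff.1 ha))
  have h2 := Nat.card_congr (MulAction.selfEquivSigmaOrbitsQuotientStabilizer E X)
  have h3 : Nat.card X = X.ncard := rfl
  have := Fintype.ofFinite (Quotient (MulAction.orbitRel E X))
  rw [← h3, h2, Nat.card_sigma]
  refine Finset.dvd_sum fun ω _ => ?_
  rw [h1, ← Subgroup.index, Subgroup.index_bot]

end Cfsg.Agent.H669.EP.Fi.Tw
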