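import Cfsg.Agent.H669.EP.FiTwP
import Cfsg.Agent.H669.EP.FiTwN
import Cfsg.Agent.H669.EP.FiTwC
import Cfsg.Agent.H669.EP.FiTwZ

/-!
# `Fi24`, `p = 23`: the count (helper669, for S4929)

`count` : the number of the transpositions `e` with `orderOf (e * v) = 23` is `4` modulo `8`.
-/

set_option autoImplicit false
set_option linter.constructorNameAsVariable false

namespace Cfsg.Agent.H669.EP.Fi

open Cfsg Subgroup
open Cfsg.Agent.Lib.PermNet Cfsg.Agent.Lib.PermNetPt Cfsg.Agent.Fischer.Fi24RepDef Cfsg.Agent.Fischer.Fi24Rep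
open Cfsg.Agent.Fischer.Fi24RepOrb (UG)
open Cfsg.Agent.Fischer.Fi24Spider (word_append word_cons word_nil)
open Cfsg.Agent.R08.FiTwentyFour (L finite_Fi24)
open Cfsg.Agent.KFacts.FiTF.Pts Cfsg.Agent.KFacts.FiTF.FixMask Cfsg.Agent.H843.Pat
open Cfsg.Spor (Fi24)
open Cfsg.Spor.Fi24 (Gen)

theorem mem_L_iff (t e : Fi24) : t * e * t⁻¹ ∈ L ↔ e ∈ L := by
  constructor
  · intro h
    have h1 := Cfsg.Agent.R08.FiTwentyFour.conj h t⁻¹
    have h2 : t⁻¹ * (t * e * t⁻¹) * t⁻¹⁻¹ = e := by group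
    rwa [h2] at h1
  · intro h
    exact Cfsg.Agent.R08.FiTwentyFour.conj h t

theorem ord_of_comm {G : Type*} [Group G] {t v : G} (h : t * v = v * t) (e : G) :
    orderOf (t * e * t⁻¹ * v) = orderOf (e * v) := by
  have h1 : t * e * t⁻¹ * v = t * (e * v) * t⁻¹ := by
    have h2 : t⁻¹ * v = v * t⁻¹ := ((show Commute t v from h).inv_left).eq
    calc t * e * t⁻¹ * v = t * e * (t⁻¹ * v) := by group
      _ = t * e * (v * t⁻¹) := by rw [h2]
      _ = t * (e * v) * t⁻¹ := by group
  rw [h1]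
  exact (MulAut.conj t).orderOf_eq (e * v)

theorem ord_of_inv {G : Type*} [Group G] {t v e : G} (h : t * v * t⁻¹ = v⁻¹) (he : e * e = 1) :
    orderOf (t * e * t⁻¹ * v) = orderOf (e * v) := by
  have hv : t⁻¹ * v * t = v⁻¹ := by
    have h2 : t * v⁻¹ * t⁻¹ = v := by
      calc t * v⁻¹ * t⁻¹ = (t * v * t⁻¹)⁻¹ := by group
        _ = v := by rw [h, inv_inv]
    calc t⁻¹ * v * t = t⁻¹ * (t * v⁻¹ * t⁻¹) * t := by rw [h2]
      _ = v⁻¹ := by group
  have h1 : t * e * t⁻¹ * v = t * (e * v⁻¹) * t⁻¹ := by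
    calc t * e * t⁻¹ * v = t * e * (t⁻¹ * v * t) * t⁻¹ := by group
      _ = t * (e * v⁻¹) * t⁻¹ := by rw [hv]; group
  have h3 : orderOf (t * (e * v⁻¹) * t⁻¹) = orderOf (e * v⁻¹) := (MulAut.conj t).orderOf_eq (e * v⁻¹)
  have h4 : (e * v⁻¹)⁻¹ = e * (e * v) * e⁻¹ := by
    rw [← mul_assoc, he, one_mul, mul_inv_rev, inv_inv]
  have h5 : orderOf (e * (e * v) * e⁻¹) = orderOf (e * v) := (MulAut.conj e).orderOf_eq (e * v)
  rw [h1, h3, ← orderOf_inv, h4, h5]

/-- the stabilizer of a set under conjugation -/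
def stabS (S : Set Fi24) : Subgroup Fi24 where
  carrier := {t | ∀ e, t * e * t⁻¹ ∈ S ↔ e ∈ S}
  one_mem' := by
    intro e
    rw [one_mul, inv_one, mul_one]
  mul_mem' := by
    intro a b ha hb e
    have h1 : a * b * e * (a * b)⁻¹ = a * (b * e * b⁻¹) * a⁻¹ := by group
    rw [h1, ha, hb]
  inv_mem' := by
    intro a ha e
    have h1 := ha (a⁻¹ * e * a⁻¹⁻¹)
    have h2 : a * (a⁻¹ * e * a⁻¹⁻¹) * a⁻¹ = e := by group
    rw [h2] at h1
    exact h1.symm

theorem mem_stabS {S : Set Fi24} {t : Fi24} : t ∈ stabS S ↔ ∀ e, t * e * t⁻¹ ∈ S ↔ e ∈ S := Iff.rfl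

theorem comm_conj {G : Type*} [Group G] {t j : G} (h : t * j = j * t) (e : G) :
    t * e * t⁻¹ * j = j * (t * e * t⁻¹) ↔ e * j = j * e := by
  have h2 : t⁻¹ * j = j * t⁻¹ := ((show Commute t j from h).inv_left).eq
  have h3 : t * e * t⁻¹ * j = t * (e * j) * t⁻¹ := by
    calc t * e * t⁻¹ * j = t * e * (t⁻¹ * j) := by group
      _ = t * e * (j * t⁻¹) := by rw [h2]
      _ = t * (e * j) * t⁻¹ := by group
  have h4 : j * (t * e * t⁻¹) = t * (j * e) * t⁻¹ := by
    calc j * (t * e * t⁻¹) = (j * t) * e * t⁻¹ := by group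
      _ = (t * j) * e * t⁻¹ := by rw [h]
      _ = t * (j * e) * t⁻¹ := by group
  rw [h3, h4]
  constructor
  · intro h5
    exact mul_left_cancel (mul_right_cancel h5)
  · intro h5
    rw [h5]

/-- the points of a covering -/
theorem exists_conj_pt {S : Set Fi24} {ss : List (List (List Gen))} (hN : ∀ s ∈ ss, ∀ w ∈ s, word w ∈ stabS S)
    {l : List ℕ} {e : Fi24} {p : ℕ} (hp : IsPt e p) (h : p ∈ bits (cov ss (msk l))) :
    ∃ t : Fi24, rho t p ∈ l ∧ IsPt (t * e * t⁻¹) (rho t p) ∧ (t * e * t⁻¹ ∈ S ↔ e ∈ S) := by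
  obtain ⟨t, ht, h1⟩ := cov_spec ss (msk l) p h
  exact ⟨t, (testBit_msk l _).1 h1, hp.conj t, mem_stabS.1 (TL_mem hN t ht) e⟩

namespace Tw

theorem word_j : word [.j] = gen .j := by
  rw [word_cons, word_nil, mul_one]

/-- the transpositions `e` commuting with `j`, `orderOf (e * v) = 23` -/
def SJ : Set Fi24 := {e | e ∈ L ∧ e * gen .j = gen .j * e ∧ orderOf (e * word vw) = 23}

theorem comm_of {a b : List Gen} (h : chkEq (a ++ b) (b ++ a) = true) : word a * word b = word b * word a := by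
  have h1 := word_eq_of h
  rwa [word_append, word_append] at h1

theorem inv_v : word gw * word vw * (word gw)⁻¹ = (word vw)⁻¹ := by
  have h1 := word_eq_of gv
  rw [word_append, word_append, word_reverse] at h1
  rw [h1, mul_inv_cancel_right]

theorem mul_comm_of {G : Type*} [Group G] {x v j : G} (h : x * j = j * x) (h' : j * v = v * j) :
    j * (x * v) = x * v * j := by
  rw [← mul_assoc, ← h, mul_assoc, h', mul_assoc]

theorem jv' : gen .j * word vw = word vw * gen .j := by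
  have h := comm_of jv
  rwa [word_j] at h

theorem mem_stab_comm {t : Fi24} (h1 : t * gen .j = gen .j * t) (h2 : t * word vw = word vw * t) : t ∈ stabS SJ := by
  intro e
  show (t * e * t⁻¹ ∈ L ∧ t * e * t⁻¹ * gen .j = gen .j * (t * e * t⁻¹) ∧ orderOf (t * e * t⁻¹ * word vw) = 23) ↔
    (e ∈ L ∧ e * gen .j = gen .j * e ∧ orderOf (e * word vw) = 23)
  rw [mem_L_iff, comm_conj h1, ord_of_comm h2]

theorem mem_stab_inv {t : Fi24} (h1 : t * gen .j = gen .j * t) (h2 : t * word vw * t⁻¹ = (word vw)⁻¹) :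
    t ∈ stabS SJ := by
  intro e
  show (t * e * t⁻¹ ∈ L ∧ t * e * t⁻¹ * gen .j = gen .j * (t * e * t⁻¹) ∧ orderOf (t * e * t⁻¹ * word vw) = 23) ↔
    (e ∈ L ∧ e * gen .j = gen .j * e ∧ orderOf (e * word vw) = 23)
  rw [mem_L_iff, comm_conj h1]
  refine and_congr_right fun he => ?_
  rw [ord_of_inv h2 (Cfsg.Agent.R08.FiTwentyFour.sq he)]

theorem stab : ∀ s ∈ ss, ∀ w ∈ s, word w ∈ stabS SJ := by
  have hy : word yw ∈ stabS SJ := mem_stab_comm (by have h := comm_of yj; rwa [word_j] at h) (comm_of yv)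
  have hc : word cw ∈ stabS SJ := mem_stab_comm (by have h := comm_of cj; rwa [word_j] at h) (comm_of cv)
  have hx : word xw ∈ stabS SJ := mem_stab_comm (by have h := comm_of xj; rwa [word_j] at h) (comm_of xv)
  have hg : word gw ∈ stabS SJ := mem_stab_inv (by have h := comm_of gj; rwa [word_j] at h) inv_v
  intro s hs w hw
  rw [ss_eq] at hs
  simp only [List.mem_cons, List.not_mem_nil, or_false] at hs
  rcases hs with rfl | rfl | rfl | rfl <;>
    simp only [List.mem_cons, List.not_mem_nil, or_false] at hw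
  · rcases hw with rfl | rfl | rfl | rfl <;> (rw [word_rep]; exact Subgroup.pow_mem _ hy _)
  · rcases hw with rfl | rfl | rfl | rfl | rfl <;> (rw [word_rep]; exact Subgroup.pow_mem _ hc _)
  · rcases hw with rfl | rfl <;> (rw [word_rep]; exact Subgroup.pow_mem _ hx _)
  · subst hw
    rw [word_rep]
    exact Subgroup.pow_mem _ hg _

/-- products of an even number of generators -/
theorem even_word : ∀ l : List Gen, Even l.length → word l ∈ _root_.commutator Fi24
  | [], _ => by rw [word_nil]; exact Subgroup.one_mem _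
  | [_], h => absurd h (by simp)
  | a :: b :: l, h => by
    rw [word_cons, word_cons, ← mul_assoc]
    refine Subgroup.mul_mem _ (Cfsg.Agent.R08.FiTwentyFour.even (Cfsg.Agent.R08.FiTwentyFour.gen_mem_L a)
      (Cfsg.Agent.R08.FiTwentyFour.gen_mem_L b)) (even_word l ?_)
    rw [List.length_cons, List.length_cons, add_assoc, Nat.even_add] at h
    exact h.2 (by decide)

/-- the products of a transposition and a word of odd length -/
theorem odd_word {e : Fi24} (he : e ∈ L) (a : Gen) (l : List Gen) (h : Even l.length) :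
    e * word (a :: l) ∈ _root_.commutator Fi24 := by
  rw [word_cons, ← mul_assoc]
  exact Subgroup.mul_mem _ (Cfsg.Agent.R08.FiTwentyFour.even he (Cfsg.Agent.R08.FiTwentyFour.gen_mem_L a))
    (even_word l h)

theorem mul_v_mem {e : Fi24} (he : e ∈ L) : e * word vw ∈ _root_.commutator Fi24 :=
  odd_word he .f _ (by decide)

/-- the set of points -/
theorem mem_iff {e : Fi24} {p : ℕ} (hp : IsPt e p) : e ∈ SJ ↔ p ∈ bits (cov ss (msk (lP.map Prod.fst))) := by
  constructor
  · intro he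
    have hj : rho (word [.j]) p = p := by
      rw [word_j]
      exact (com hp _).1 he.2.1.symm
    have h1 := (covD_spec chkC).1
    rw [seqB_eq, seqB_eq] at h1
    have h2 := Nat.eq_of_beq_eq_true h1
    have h3 : p ∈ bits (sv (nw [.j] false) bl UG) :=
      sv_spec (wok [.j] false) bl (bit hp) (by rw [← rho_word]; exact hj)
    rw [← h2] at h3
    have h4 := (show _ ∧ _ by
      have h5 : (Nat.land (sv (nw [.j] false) bl UG) (Nat.lor (cov ss (msk (lP.map Prod.fst)))
        (cov ss (msk (lN.map Prod.fst ++ lF.map Prod.fst))))).testBit p = true := h3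
      rw [show ∀ a b, Nat.land a b = a &&& b from fun _ _ => rfl, Nat.testBit_and, Bool.and_eq_true] at h5
      exact h5)
    have h5 := h4.2
    rw [show ∀ a b, Nat.lor a b = a ||| b from fun _ _ => rfl, Nat.testBit_or, Bool.or_eq_true] at h5
    rcases h5 with h5 | h5
    · exact h5
    · exfalso
      obtain ⟨t, ht, h6, h7⟩ := exists_conj_pt stab hp h5
      obtain ⟨h8, h9, h10⟩ := h7.2 he
      rcases List.mem_append.1 ht with ht | ht
      · obtain ⟨a, ha, hat⟩ := List.mem_map.1 ht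
        obtain ⟨d, hd, hd1, hd2⟩ := cycL_spec chkN a ha
        rw [hat] at hd
        have hde : d = t * e * t⁻¹ := hd.inj h6
        rw [hde] at hd1 hd2
        have h11 := pow_orderOf_eq_one (t * e * t⁻¹ * word vw)
        rw [h10] at h11
        exact not_coprime hd1 hd2 h11 (cop a ha)
      · obtain ⟨a, ha, hat⟩ := List.mem_map.1 ht
        obtain ⟨d, hd, hd1, f, hf⟩ := fixL_spec chkF a ha
        rw [hat] at hd
        have hde : d = t * e * t⁻¹ := hd.inj h6
        rw [hde] at hd1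
        have h11 : f * (t * e * t⁻¹ * word vw) = t * e * t⁻¹ * word vw * f := ((com hf _).2 hd1).symm
        have h12 : gen .j * (t * e * t⁻¹ * word vw) = t * e * t⁻¹ * word vw * gen .j := mul_comm_of h9 jv'
        have h13 := uniq h10 hf.mem (Cfsg.Agent.R08.FiTwentyFour.gen_mem_L .j) h11 h12
        rw [h13] at hf
        exact ne136 a ha (hf.uniq (isPt_gen .j))
  · intro h
    obtain ⟨t, ht, h6, h7⟩ := exists_conj_pt stab hp h
    rw [← h7]
    obtain ⟨a, ha, hat⟩ := List.mem_map.1 ht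
    obtain ⟨d, hd, hd1, hd2⟩ := cycL_spec chkP a ha
    rw [hat] at hd
    have hde : d = t * e * t⁻¹ := hd.inj h6
    rw [hde] at hd1 hd2
    refine ⟨h6.mem, ?_, ?_⟩
    · have h8 := fixB_spec fix_j _ ht
      rw [word_j] at h8
      exact ((com h6 _).2 h8).symm
    · rw [per a ha] at hd1
      exact order_of_dvd (mul_v_mem h6.mem) (dvd_of_cycle (by norm_num) hd1 hd2)

theorem ncard_SJ : SJ.ncard = 3420 := by
  rw [ncard_eq (S := SJ) (T := bits (cov ss (msk (lP.map Prod.fst)))) (fun e he => he.1)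
    (fun e p hp => mem_iff hp) ?_]
  · rw [(covD_spec chkC).2, bits_msk nodup, length, cnt_ss]
  · intro p hp
    obtain ⟨t, -, h1⟩ := cov_spec ss _ p hp
    rw [testBit_msk] at h1
    obtain ⟨a, ha, hat⟩ := List.mem_map.1 h1
    obtain ⟨d, hd, -⟩ := cycL_spec chkP a ha
    rw [hat] at hd
    refine ⟨t⁻¹ * d * t⁻¹⁻¹, ?_⟩
    have h2 := hd.conj t⁻¹
    rwa [← Equiv.Perm.mul_apply, ← map_mul, inv_mul_cancel, map_one, Equiv.Perm.one_apply] at h2

end Tw

end Cfsg.Agent.H669.EP.Fi
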