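import Cfsg.Agent.H669.EP.Count
import Cfsg.Agent.H669.EP.FiTw
import Cfsg.Agent.H709.PB.Deg

/-!
# `Fi24'`, `p = 23`: the principal block contains a character of even degree (helper669, for S4929)
-/

set_option autoImplicit false
set_option maxRecDepth 100000
set_option linter.constructorNameAsVariable false

namespace Cfsg.Agent.H669.EP.Fi

open Cfsg Subgroup
open Cfsg.Agent.Lib.PermNet Cfsg.Agent.Lib.PermNetPt Cfsg.Agent.Fischer.Fi24RepDef Cfsg.Agent.Fischer.Fi24Rep
open Cfsg.Agent.Fischer.Fi24Spider (word_append word_cons word_nil)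
open Cfsg.Agent.R08.FiTwentyFour (L finite_Fi24)
open Cfsg.Agent.KFacts.FiTF.Pts Cfsg.Agent.KFacts.FiTF.FixMask Cfsg.Agent.H843.Pat
open Cfsg.Spor (Fi24)
open Cfsg.Spor.Fi24 (Gen)

theorem index_cent {G : Type*} [Group G] [Finite G] (g : G) :
    (centralizer ({g} : Set G)).index = (conjugatesOf g).ncard := by
  rw [Subgroup.centralizer_eq_comap_stabilizer]
  refine (Subgroup.index_comap_of_surjective (MulAction.stabilizer (ConjAct G) g)
    (f := (ConjAct.toConjAct (G := G)).toMonoidHom) (MulEquiv.surjective _)).trans ?_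
  rw [MulAction.index_stabilizer, ConjAct.orbit_eq_carrier_conjClasses]
  rfl

theorem dvd_index : 2 ^ 3 ∣ (centralizer ({gen .l} : Set Fi24)).index := by
  have : Finite Fi24 := finite_Fi24
  rw [index_cent]
  have h := Cfsg.Agent.R08.FiTwentyFour.ncard_L
  change (conjugatesOf (gen .l)).ncard = _ at h
  rw [h]
  norm_num

/-! ### Three commuting involutions -/

theorem mem_zpowers_invol {G : Type*} [Group G] {a x : G} (ha : a * a = 1) (hx : x ∈ zpowers a) : x = 1 ∨ x = a := by
  obtain ⟨n, rfl⟩ := hx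
  have h2 : a ^ (2 : ℤ) = 1 := by
    rw [show (2 : ℤ) = ((2 : ℕ) : ℤ) from rfl, zpow_natCast, pow_two, ha]
  rcases Int.even_or_odd' n with ⟨k, rfl | rfl⟩
  · left
    show a ^ (2 * k) = 1
    rw [zpow_mul, h2, one_zpow]
  · right
    show a ^ (2 * k + 1) = a
    rw [zpow_add, zpow_mul, h2, one_zpow, one_mul, zpow_one]

theorem card_zpowers_invol {G : Type*} [Group G] {a : G} (ha : a * a = 1) (h1 : a ≠ 1) :
    Nat.card (zpowers a) = 2 := by
  have : Fact (Nat.Prime 2) := ⟨Nat.prime_two⟩
  rw [Nat.card_zpowers]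
  exact orderOf_eq_prime (by rw [pow_two, ha]) h1

/-- three commuting involutions generating a group acting freely -/
theorem eight_dvd {G : Type*} [Group G] [Finite G] {a b c : G} (ha : a * a = 1) (hb : b * b = 1) (hc : c * c = 1)
    (ha1 : a ≠ 1) (hb1 : b ≠ 1) (hc1 : c ≠ 1) (hab : a * b = b * a) (hac : a * c = c * a) (hbc : b * c = c * b)
    (X : Set G) (hXa : ∀ x ∈ X, a * x * a⁻¹ ∈ X) (hXb : ∀ x ∈ X, b * x * b⁻¹ ∈ X) (hXc : ∀ x ∈ X, c * x * c⁻¹ ∈ X)
    (hf : ∀ x ∈ X, ∀ s, s * x * s⁻¹ = x → s ≠ a ∧ s ≠ b ∧ s ≠ a * b ∧ s ≠ c ∧ s ≠ a * c ∧ s ≠ b * c ∧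
      s ≠ a * (b * c)) : 8 ∣ X.ncard := by
  have h1 : ∀ (m : zpowers b) (n : zpowers c), Commute ((zpowers b).subtype m) ((zpowers c).subtype n) := by
    rintro ⟨m, hm⟩ ⟨n, hn⟩
    show Commute m n
    obtain ⟨i, rfl⟩ := hm
    obtain ⟨k, rfl⟩ := hn
    exact (show Commute b c from hbc).zpow_zpow i k
  have h2 : ∀ (m : zpowers a) (n : zpowers b × zpowers c), Commute ((zpowers a).subtype m)
      (MonoidHom.noncommCoprod (zpowers b).subtype (zpowers c).subtype h1 n) := by
    rintro ⟨m, hm⟩ ⟨⟨n, hn⟩, ⟨k, hk⟩⟩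
    show Commute m (n * k)
    obtain ⟨i, rfl⟩ := hm
    obtain ⟨i', rfl⟩ := hn
    obtain ⟨i'', rfl⟩ := hk
    exact ((show Commute a b from hab).zpow_zpow i i').mul_right ((show Commute a c from hac).zpow_zpow i i'')
  have h3 := Tw.dvd_ncard_of_free (E := zpowers a × zpowers b × zpowers c)
    (MonoidHom.noncommCoprod (zpowers a).subtype (MonoidHom.noncommCoprod (zpowers b).subtype
      (zpowers c).subtype h1) h2) X ?_ ?_
  · rw [Nat.card_prod, Nat.card_prod, card_zpowers_invol ha ha1, card_zpowers_invol hb hb1,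
      card_zpowers_invol hc hc1] at h3
    exact h3
  · rintro ⟨⟨m, hm⟩, ⟨n, hn⟩, ⟨k, hk⟩⟩ x hx
    show (m * (n * k)) * x * (m * (n * k))⁻¹ ∈ X
    have e : (m * (n * k)) * x * (m * (n * k))⁻¹ = m * (n * (k * x * k⁻¹) * n⁻¹) * m⁻¹ := by group
    rw [e]
    have hk' : k * x * k⁻¹ ∈ X := by
      rcases mem_zpowers_invol hc hk with rfl | rfl
      · simpa using hx
      · exact hXc _ hx
    have hn' : n * (k * x * k⁻¹) * n⁻¹ ∈ X := by
      rcases mem_zpowers_invol hb hn with rfl | rfl
      · simpa using hk'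
      · exact hXb _ hk'
    rcases mem_zpowers_invol ha hm with rfl | rfl
    · simpa using hn'
    · exact hXa _ hn'
  · rintro ⟨⟨m, hm⟩, ⟨n, hn⟩, ⟨k, hk⟩⟩ x hx hs
    have hs' : (m * (n * k)) * x * (m * (n * k))⁻¹ = x := hs
    obtain ⟨q1, q2, q3, q4, q5, q6, q7⟩ := hf x hx _ hs'
    have key : m = 1 ∧ n = 1 ∧ k = 1 := by
      rcases mem_zpowers_invol ha hm with rfl | rfl <;> rcases mem_zpowers_invol hb hn with rfl | rfl <;>
        rcases mem_zpowers_invol hc hk with rfl | rfl
      · exact ⟨rfl, rfl, rfl⟩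
      · exact absurd (by group) q4
      · exact absurd (by group) q2
      · exact absurd (by group) q6
      · exact absurd (by group) q1
      · exact absurd (by group) q5
      · exact absurd (by group) q3
      · exact absurd (by group) q7
    obtain ⟨rfl, rfl, rfl⟩ := key
    rfl

namespace Tw

/-- the transpositions `e` not commuting with `j`, `orderOf (e * v) = 23` -/
def XJ : Set Fi24 := {e | e ∈ L ∧ ¬ e * gen .j = gen .j * e ∧ orderOf (e * word vw) = 23}

theorem tt' : word tw * word tw = 1 := by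
  have h := word_eq_of tt
  rwa [word_append, word_nil] at h

theorem gg' : word gw * word gw = 1 := by
  have h := word_eq_of gg
  rwa [word_append, word_nil] at h

theorem jj : gen .j * gen .j = 1 := Cfsg.Agent.R08.FiTwentyFour.sq (Cfsg.Agent.R08.FiTwentyFour.gen_mem_L .j)

theorem tv : word tw * word vw = word vw * word tw := by
  rw [tw_eq, word_rep]
  exact (show Commute (word cw) (word vw) from comm_of cv).pow_left 3

theorem tj : word tw * gen .j = gen .j * word tw := by
  have h := comm_of cj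
  rw [word_j] at h
  rw [tw_eq, word_rep]
  exact (show Commute (word cw) (gen .j) from h).pow_left 3

theorem gj' : word gw * gen .j = gen .j * word gw := by
  have h := comm_of gj
  rwa [word_j] at h

theorem i_ne_f : gen .i ≠ gen .f := by
  intro h
  have h1 := (isPt_gen .f)
  rw [← h] at h1
  exact absurd ((isPt_gen .i).uniq h1) (by decide)

theorem fi : chkEq [.f, .i] [.i, .f] = true := by decide +kernel

theorem gw_moved : Nat.beq (winv (nw gw false) (pn .d)) (pn .d) = false := by decide +kernel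

theorem gw_ne_one : word gw ≠ 1 := by
  intro h
  have h1 := gw_moved
  rw [winv_word, h, inv_one, map_one, Equiv.Perm.one_apply, Nat.beq_refl] at h1
  exact absurd h1 (by simp)

/-- `t` is not a transposition -/
theorem t_not_mem : word tw ∉ L := by
  intro h
  have h1 := word_eq_of tft
  rw [word_append, word_cons, word_cons, word_nil, mul_one] at h1
  rcases Cfsg.Agent.R08.FiTwentyFour.three h (Cfsg.Agent.R08.FiTwentyFour.gen_mem_L .i) with h2 | h2
  · apply i_ne_f
    have h3 : word tw * gen .i = gen .i * word tw := h2.eq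
    rw [h1, ← mul_assoc, h3, mul_assoc, tt', mul_one]
  · -- `f = i t i`, `f` and `i` commute
    have h2' : word tw * gen .i * word tw = gen .i * word tw * gen .i := h2
    have h3 : gen .f = gen .i * word tw * gen .i := by rw [h1, ← mul_assoc, h2']
    have hfi : gen .f * gen .i = gen .i * gen .f := by
      have h4 : word [.f, .i] = word [.i, .f] := word_eq_of fi
      rwa [word_cons, word_cons, word_nil, mul_one, word_cons, word_cons, word_nil, mul_one] at h4
    have hii : gen .i * gen .i = 1 := Cfsg.Agent.R08.FiTwentyFour.sq (Cfsg.Agent.R08.FiTwentyFour.gen_mem_L .i)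
    have h5 : word tw = gen .f := by
      calc word tw = gen .i * (gen .i * word tw * gen .i) * gen .i := by
            rw [show gen .i * (gen .i * word tw * gen .i) * gen .i = (gen .i * gen .i) * word tw * (gen .i * gen .i) by
              group, hii, one_mul, mul_one]
        _ = gen .i * gen .f * gen .i := by rw [← h3]
        _ = gen .f := by rw [← hfi, mul_assoc, hii, mul_one]
    have hff : gen .f * gen .f = 1 := Cfsg.Agent.R08.FiTwentyFour.sq (Cfsg.Agent.R08.FiTwentyFour.gen_mem_L .f)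
    apply i_ne_f
    rw [h5] at h1
    rw [h1, ← mul_assoc, hfi, mul_assoc, hff, mul_one]

theorem t_ne_one : word tw ≠ 1 := by
  intro h
  have h1 := word_eq_of tft
  rw [word_append, word_cons, word_cons, word_nil, mul_one, h, one_mul, mul_one] at h1
  exact i_ne_f h1.symm

theorem order_invol {G : Type*} [Group G] {a : G} (ha : a * a = 1) (h1 : a ≠ 1) : orderOf a = 2 := by
  have : Fact (Nat.Prime 2) := ⟨Nat.prime_two⟩
  exact orderOf_eq_prime (by rw [pow_two, ha]) h1

/-- an involution centralizing `v` and `e`, `orderOf (e * v) = 23`, is a transposition -/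
theorem mem_L_of {e s : Fi24} (h : orderOf (e * word vw) = 23) (hs : s * s = 1) (hs1 : s ≠ 1)
    (hv : s * word vw = word vw * s) (he : s * e * s⁻¹ = e) : s ∈ L := by
  obtain ⟨d, hd, h1⟩ := exists_tr h
  have h2 : s * (e * word vw) = e * word vw * s := by
    have h3 : s * e = e * s := by
      calc s * e = s * e * s⁻¹ * s := by group
        _ = e * s := by rw [he]
    rw [← mul_assoc, h3, mul_assoc, hv, mul_assoc]
  rw [eq_of_invol h hd h1 (order_invol hs hs1) h2]
  exact hd

theorem false_of_inv {e s : Fi24} (heL : e ∈ L) (h : orderOf (e * word vw) = 23)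
    (hv : s * word vw * s⁻¹ = (word vw)⁻¹) (he : s * e * s⁻¹ = e) : False := by
  apply not_real h
  rw [isConj_iff]
  have hee := Cfsg.Agent.R08.FiTwentyFour.sq heL
  refine ⟨e⁻¹ * s, ?_⟩
  calc e⁻¹ * s * (e * word vw) * (e⁻¹ * s)⁻¹ = e⁻¹ * (s * e * s⁻¹) * (s * word vw * s⁻¹) * e := by group
    _ = (word vw)⁻¹ * e := by rw [he, hv]; group
    _ = (word vw)⁻¹ * e⁻¹ := by rw [inv_eq_of_mul_eq_one_right hee]
    _ = (e * word vw)⁻¹ := by group

theorem mem_XJ_comm {t : Fi24} (h1 : t * gen .j = gen .j * t) (h2 : t * word vw = word vw * t) {e : Fi24}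
    (he : e ∈ XJ) : t * e * t⁻¹ ∈ XJ := by
  obtain ⟨a, b, c⟩ := he
  refine ⟨(mem_L_iff t e).2 a, ?_, ?_⟩
  · rw [comm_conj h1]
    exact b
  · rw [ord_of_comm h2]
    exact c

theorem mem_XJ_inv {t : Fi24} (h1 : t * gen .j = gen .j * t) (h2 : t * word vw * t⁻¹ = (word vw)⁻¹) {e : Fi24}
    (he : e ∈ XJ) : t * e * t⁻¹ ∈ XJ := by
  obtain ⟨a, b, c⟩ := he
  refine ⟨(mem_L_iff t e).2 a, ?_, ?_⟩
  · rw [comm_conj h1]
    exact b
  · rw [ord_of_inv h2 (Cfsg.Agent.R08.FiTwentyFour.sq a)]
    exact c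

theorem inv_mul {G : Type*} [Group G] {s v g : G} (hs : s * v = v * s) (hg : g * v * g⁻¹ = v⁻¹) :
    (s * g) * v * (s * g)⁻¹ = v⁻¹ := by
  have h1 : s * v⁻¹ = v⁻¹ * s := ((show Commute s v from hs).inv_right).eq
  calc (s * g) * v * (s * g)⁻¹ = s * (g * v * g⁻¹) * s⁻¹ := by group
    _ = v⁻¹ := by rw [hg, h1, mul_inv_cancel_right]

theorem eight_dvd_XJ : 8 ∣ XJ.ncard := by
  have : Finite Fi24 := finite_Fi24
  have hj1 : gen .j ≠ 1 := Cfsg.Agent.R08.FiTwentyFour.ne_one_L (Cfsg.Agent.R08.FiTwentyFour.gen_mem_L .j)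
  have hgt : word gw * word tw = word tw * word gw := comm_of gt
  have hjt1 : gen .j * word tw ≠ 1 := by
    intro h
    apply t_not_mem
    have h2 : word tw = gen .j := by
      calc word tw = gen .j * (gen .j * word tw) := by rw [← mul_assoc, jj, one_mul]
        _ = gen .j := by rw [h, mul_one]
    rw [h2]
    exact Cfsg.Agent.R08.FiTwentyFour.gen_mem_L .j
  have hjt2 : gen .j * word tw * (gen .j * word tw) = 1 := by
    calc gen .j * word tw * (gen .j * word tw) = gen .j * (word tw * gen .j) * word tw := by group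
      _ = (gen .j * gen .j) * (word tw * word tw) := by rw [tj]; group
      _ = 1 := by rw [jj, tt', mul_one]
  have hjtv : gen .j * word tw * word vw = word vw * (gen .j * word tw) :=
    ((show Commute (gen .j) (word vw) from jv').mul_left (show Commute (word tw) (word vw) from tv)).eq
  refine eight_dvd (a := gen .j) (b := word tw) (c := word gw) jj tt' gg' hj1 t_ne_one gw_ne_one tj.symm gj'.symm
    hgt.symm XJ (fun x hx => mem_XJ_comm rfl jv' hx) (fun x hx => mem_XJ_comm tj tv hx)
    (fun x hx => mem_XJ_inv gj' inv_v hx) ?_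
  intro x hx s hs
  refine ⟨?_, ?_, ?_, ?_, ?_, ?_, ?_⟩
  · rintro rfl
    apply hx.2.1
    calc x * gen .j = gen .j * x * (gen .j)⁻¹ * gen .j := by rw [hs]
      _ = gen .j * x := by group
  · rintro rfl
    exact t_not_mem (mem_L_of hx.2.2 tt' t_ne_one tv hs)
  · rintro rfl
    have h1 := mem_L_of hx.2.2 hjt2 hjt1 hjtv hs
    apply Cfsg.Agent.R08.FiTwentyFour.odd h1
    rw [← word_j, ← word_append]
    exact even_word _ (by decide)
  · rintro rfl
    exact false_of_inv hx.1 hx.2.2 inv_v hs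
  · rintro rfl
    exact false_of_inv hx.1 hx.2.2 (inv_mul jv' inv_v) hs
  · rintro rfl
    exact false_of_inv hx.1 hx.2.2 (inv_mul tv inv_v) hs
  · rintro rfl
    rw [← mul_assoc] at hs
    exact false_of_inv hx.1 hx.2.2 (inv_mul hjtv inv_v) hs

theorem count : ¬ 2 ^ 3 ∣ Nat.card {b : Fi24 // IsConj (gen .l) b ∧ orderOf (b * word vw) = 23} := by
  have : Finite Fi24 := finite_Fi24
  have h1 : Nat.card {b : Fi24 // IsConj (gen .l) b ∧ orderOf (b * word vw) = 23} = SJ.ncard + XJ.ncard := by
    rw [← Set.ncard_union_eq ?_ (Set.toFinite _) (Set.toFinite _)]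
    · have h2 : SJ ∪ XJ = {b : Fi24 | IsConj (gen .l) b ∧ orderOf (b * word vw) = 23} := by
        ext b
        constructor
        · rintro (⟨a, -, c⟩ | ⟨a, -, c⟩)
          · exact ⟨a, c⟩
          · exact ⟨a, c⟩
        · rintro ⟨a, c⟩
          by_cases hb : b * gen .j = gen .j * b
          · exact Or.inl ⟨a, hb, c⟩
          · exact Or.inr ⟨a, hb, c⟩
      rw [h2]
      rfl
    · rw [Set.disjoint_left]
      intro b hb hb'
      exact hb'.2.1 hb.2.1
  rw [h1, ncard_SJ]
  obtain ⟨m, hm⟩ := eight_dvd_XJ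
  rw [hm]
  omega

theorem nb : H709.PB.NB 23 1 (_root_.commutator Fi24) := by
  have : Finite Fi24 := finite_Fi24
  have : Fact (Nat.Prime 23) := ⟨by norm_num⟩
  have hord := H843.D23.order
  have hx := H843.Fi24N.mem_commutator (x := H843.D23.D.x) (by rw [hord]; decide)
  refine H709.PB.NB.of_self (g := (⟨_, hx⟩ : _root_.commutator Fi24)) ?_ ⟨1, by rw [Subgroup.orderOf_mk, hord, pow_one]⟩
  refine IsPGroup.of_card (n := 1) ?_
  obtain ⟨e, he, hez⟩ := exists_tr hord
  have h1 := H843.Fi24N.half (H := centralizer ({H843.D23.D.x} : Set Fi24)) (mem_centralizer_singleton_iff.2 hez) he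
  rw [card_cent hord] at h1
  have h2 : (centralizer ({(⟨_, hx⟩ : _root_.commutator Fi24)} : Set (_root_.commutator Fi24))).map
      (_root_.commutator Fi24).subtype = _root_.commutator Fi24 ⊓ centralizer ({H843.D23.D.x} : Set Fi24) := by
    ext g
    simp only [mem_inf, mem_map, mem_centralizer_singleton_iff, Subgroup.coe_subtype]
    constructor
    · rintro ⟨y, h1, rfl⟩
      exact ⟨y.2, congrArg Subtype.val h1⟩
    · rintro ⟨h1, h2⟩
      exact ⟨⟨g, h1⟩, Subtype.ext h2, rfl⟩
  have h3 : Nat.card (centralizer ({(⟨_, hx⟩ : _root_.commutator Fi24)} : Set (_root_.commutator Fi24))) =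
      Nat.card (_root_.commutator Fi24 ⊓ centralizer ({H843.D23.D.x} : Set Fi24) : Subgroup Fi24) := by
    rw [← h2]
    exact (card_map_of_injective (_root_.commutator Fi24).subtype_injective).symm
  rw [h3, pow_one]
  omega

theorem evAt : H892.EP.EvAt 23 (_root_.commutator Fi24) := by
  have : Finite Fi24 := finite_Fi24
  have : Fact (Nat.Prime 23) := ⟨by norm_num⟩
  exact evAt_of_nonreal (G := Fi24) (_root_.commutator Fi24) Cfsg.Agent.R08.FiTwentyFour.index_commutator nb not_sq
    (d := gen .l) (Cfsg.Agent.R08.FiTwentyFour.odd gen_l_mem) (Cfsg.Agent.R08.FiTwentyFour.sq gen_l_mem)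
    (v := word vw) (c := word gw) inv_v (fun y hy => ⟨23, card_cent hy, by norm_num⟩) (fun y hy => not_real hy)
    (k := 3) dvd_index count

end Tw

end Cfsg.Agent.H669.EP.Fi
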