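import Cfsg.Agent.H669.EP.FiTwDat

/-! # `Fi24`, `p = 23`: kernel checks, the elements of order 23 (helper669, for S4929) -/

set_option autoImplicit false
set_option maxRecDepth 100000
set_option Elab.async false

namespace Cfsg.Agent.H669.EP.Fi.Tw

theorem chkP : cycL vw lP = true := by decide +kernel

end Cfsg.Agent.H669.EP.Fi.Tw
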